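import Cfsg.Agent.H19.Cores
import Cfsg.Agent.H40.PPart
import Cfsg.Agent.H59.PSolvable
import Cfsg.Agent.H84.PSolvable
import Mathlib

/-!
# Pairs of Sylow subgroups: elementary lemmas on a `p'`-subgroup normalized by a `p`-subgroup
-/

set_option autoImplicit false
set_option linter.unusedSectionVars false

namespace Cfsg.Agent.H92.Pairs

variable {G : Type*} [Group G] [Finite G] {p : ℕ} [hp : Fact p.Prime]

/-- An element of a `p`-subgroup and of a `p'`-subgroup is trivial. -/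
theorem eq_one_of_mem {R K : Subgroup G} (hR : IsPGroup p R) (hK : ¬ p ∣ Nat.card K) {x : G}
    (h1 : x ∈ R) (h2 : x ∈ K) : x = 1 := by
  have h : x ∈ R ⊓ K := ⟨h1, h2⟩
  rwa [H19.inf_eq_bot_of_isPGroup_coprime hR (hp.out.coprime_iff_not_dvd.2 hK).symm,
    Subgroup.mem_bot] at h

theorem conj_mem {H : Subgroup G} {n a : G} (hn : n ∈ Subgroup.normalizer (H : Set G))
    (ha : a ∈ H) : n * a * n⁻¹ ∈ H :=
  (Subgroup.mem_normalizer_iff.1 hn a).1 ha

theorem exists_mul {R K : Subgroup G} (hRK : R ≤ Subgroup.normalizer (K : Set G)) {x : G}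
    (hx : x ∈ R ⊔ K) : ∃ r ∈ R, ∃ k ∈ K, x = r * k := by
  have h : x ∈ ((R ⊔ K : Subgroup G) : Set G) := hx
  rw [Subgroup.coe_mul_of_left_le_normalizer_right R K hRK] at h
  obtain ⟨r, hr, k, hk, e⟩ := h
  exact ⟨r, hr, k, hk, e.symm⟩

/-- A `p`-subgroup of `R K` is conjugate into `R` by an element of `K`. -/
theorem exists_conj_into {R K U : Subgroup G} (hR : IsPGroup p R)
    (hRK : R ≤ Subgroup.normalizer (K : Set G)) (hK : ¬ p ∣ Nat.card K)
    (hU : U ≤ R ⊔ K) (hUp : IsPGroup p U) : ∃ k ∈ K, ∀ x ∈ U, k⁻¹ * x * k ∈ R := by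
  set T := R ⊔ K with hT
  set R' := R.subgroupOf T
  set K' := K.subgroupOf T
  set U' := U.subgroupOf T
  have hco : Subgroup.IsComplement' K' R' := by
    refine Subgroup.isComplement'_of_disjoint_and_mul_eq_univ ?_ ?_
    · rw [Subgroup.disjoint_def]
      intro x hx hx'
      exact Subtype.ext (eq_one_of_mem hR hK hx' hx)
    · refine Set.eq_univ_of_forall fun t => ?_
      obtain ⟨r, hr, k, hk, e⟩ := exists_mul hRK t.2
      have hk' : r * k * r⁻¹ ∈ K := conj_mem (hRK hr) hk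
      refine ⟨⟨r * k * r⁻¹, Subgroup.mem_sup_right hk'⟩, hk', ⟨r, Subgroup.mem_sup_left hr⟩, hr,
        Subtype.ext ?_⟩
      show r * k * r⁻¹ * r = t
      rw [e]; group
  have hidx : ¬ p ∣ Nat.card (T ⧸ R') := by
    rw [← Subgroup.index_eq_card, hco.index_eq_card,
      Nat.card_congr (Subgroup.subgroupOfEquivOfLe (le_sup_right : K ≤ T)).toEquiv]
    exact hK
  have hU'p : IsPGroup p U' := hUp.comap_of_injective _ T.subtype_injective
  obtain ⟨x, hx⟩ := hU'p.nonempty_fixed_point_of_prime_not_dvd_card (T ⧸ R') hidx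
  obtain ⟨t, rfl⟩ := QuotientGroup.mk_surjective x
  obtain ⟨r, hr, k, hk, e⟩ := exists_mul hRK t.2
  refine ⟨r * k * r⁻¹, conj_mem (hRK hr) hk, fun u hu => ?_⟩
  have h1 := hx ⟨⟨u, hU hu⟩, hu⟩
  have h2 : (t : T)⁻¹ * (⟨u, hU hu⟩ * t) ∈ R' := QuotientGroup.eq.1 h1.symm
  have h3 : (t : G)⁻¹ * (u * t) ∈ R := h2
  rw [e] at h3
  have h4 := mul_mem (mul_mem hr h3) (inv_mem hr)
  convert h4 using 1
  group

/-- An element of `R K` of order prime to `p` lies in `K`. -/
theorem mem_of_regular {R K : Subgroup G} (hR : IsPGroup p R)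
    (hRK : R ≤ Subgroup.normalizer (K : Set G)) (hK : ¬ p ∣ Nat.card K) {x : G}
    (hx : x ∈ R ⊔ K) (hreg : ¬ p ∣ orderOf x) : x ∈ K := by
  obtain ⟨r, hr, k, hk, e⟩ := exists_mul hRK hx
  have hpow : ∀ i : ℕ, (r ^ i)⁻¹ * x ^ i ∈ K := by
    intro i
    induction i with
    | zero => simp
    | succ i ih =>
      have e' : (r ^ (i + 1))⁻¹ * x ^ (i + 1) = (r⁻¹ * ((r ^ i)⁻¹ * x ^ i) * r) * k := by
        rw [pow_succ, pow_succ, mul_inv_rev, e]; group
      rw [e']
      refine mul_mem ?_ hk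
      simpa using conj_mem (hRK (inv_mem hr)) ih
  have h1 := hpow (orderOf x)
  rw [pow_orderOf_eq_one, mul_one] at h1
  have h2 : r ^ orderOf x = 1 :=
    inv_eq_one.1 (eq_one_of_mem hR hK (inv_mem (pow_mem hr _)) h1)
  obtain ⟨i, hi⟩ := IsPGroup.iff_orderOf.1 hR ⟨r, hr⟩
  rw [Subgroup.orderOf_mk] at hi
  have h3 : r = 1 := by
    rcases Nat.eq_zero_or_pos i with rfl | hpos
    · simpa using hi
    · exact absurd ((dvd_pow_self p hpos.ne').trans (hi ▸ orderOf_dvd_of_pow_eq_one h2)) hreg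
  rw [e, h3, one_mul]
  exact hk

/-- An element of the coset `K c` is conjugate in `K` to an element `v c` with `v` centralizing `c`. -/
theorem exists_section {R K : Subgroup G} (hR : IsPGroup p R)
    (hRK : R ≤ Subgroup.normalizer (K : Set G)) (hK : ¬ p ∣ Nat.card K) {c x : G} (hc : c ∈ R)
    (hx : x ∈ K) : ∃ r ∈ K, ∃ v ∈ K, Commute c v ∧ x * c = r * (v * c) * r⁻¹ := by
  have hyT : x * c ∈ R ⊔ K := mul_mem (Subgroup.mem_sup_right hx) (Subgroup.mem_sup_left hc)
  obtain ⟨u, hu⟩ := H40.exists_isPPart p (x * c)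
  have huT : u ∈ R ⊔ K := H40.mem_of_isPPart hu hyT
  obtain ⟨w, huw, hcom, ⟨j, hj⟩, hwreg⟩ := hu
  obtain ⟨k, hk, hkR⟩ := exists_conj_into hR hRK hK (U := Subgroup.zpowers u)
    (by simpa using huT) (IsPGroup.of_card (n := j) (by rw [Nat.card_zpowers, hj]))
  have hhR : k⁻¹ * u * k ∈ R := hkR u (Subgroup.mem_zpowers u)
  set h := k⁻¹ * u * k with hh
  set w' := k⁻¹ * w * k with hw'
  have hkT : k ∈ R ⊔ K := Subgroup.mem_sup_right hk
  have hwK : w' ∈ K := by
    refine mem_of_regular hR hRK hK ?_ ?_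
    · have : w = u⁻¹ * (x * c) := by rw [← huw]; group
      rw [hw', this]
      exact mul_mem (mul_mem (inv_mem hkT) (mul_mem (inv_mem huT) hyT)) hkT
    · have e : orderOf w' = orderOf w := by
        rw [hw']
        have := orderOf_injective (MulAut.conj k⁻¹).toMonoidHom (MulAut.conj k⁻¹).injective w
        simpa using this
      rwa [e]
  have hch : c = h := by
    refine mul_inv_eq_one.1 (eq_one_of_mem hR hK (mul_mem hc (inv_mem hhR)) ?_)
    have e2 : h * w' = k⁻¹ * (x * c) * k := by rw [hh, hw', ← huw]; group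
    have e : c * h⁻¹ = (k⁻¹ * x * (c * k * c⁻¹))⁻¹ * (h * w' * h⁻¹) := by
      rw [e2]; group
    rw [e]
    exact mul_mem (inv_mem (mul_mem (mul_mem (inv_mem hk) hx) (conj_mem (hRK hc) hk)))
      (conj_mem (hRK hhR) hwK)
  have hcom' : Commute h w' := by
    show k⁻¹ * u * k * (k⁻¹ * w * k) = k⁻¹ * w * k * (k⁻¹ * u * k)
    calc k⁻¹ * u * k * (k⁻¹ * w * k) = k⁻¹ * (u * w) * k := by group
      _ = k⁻¹ * (w * u) * k := by rw [hcom.eq]
      _ = _ := by group
  refine ⟨k, hk, w', hwK, hch ▸ hcom', ?_⟩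
  calc x * c = k * (h * w') * k⁻¹ := by rw [hh, hw', ← huw]; group
    _ = k * (w' * c) * k⁻¹ := by rw [hch, hcom'.eq]

/-- A `p'`-subgroup normalized by an element of a normal `p`-subgroup is centralized by it. -/
theorem commute_of_normalizes {O U : Subgroup G} [O.Normal] (hO : IsPGroup p O)
    (hU : ¬ p ∣ Nat.card U) {o u : G} (ho : o ∈ O)
    (hoU : o ∈ Subgroup.normalizer (U : Set G)) (hu : u ∈ U) : Commute u o := by
  have h1 : u * o * u⁻¹ * o⁻¹ ∈ O :=
    mul_mem (Subgroup.Normal.conj_mem inferInstance o ho u) (inv_mem ho)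
  have h2 : u * o * u⁻¹ * o⁻¹ ∈ U := by
    rw [show u * o * u⁻¹ * o⁻¹ = u * (o * u⁻¹ * o⁻¹) by group]
    exact mul_mem hu (conj_mem hoU (inv_mem hu))
  have h3 := eq_one_of_mem hO hU h1 h2
  show u * o = o * u
  exact mul_inv_eq_iff_eq_mul.1 (mul_inv_eq_one.1 h3)

/-- The image of a `p'`-subgroup has order prime to `p`. -/
theorem not_dvd_card_map {H : Type*} [Group H] {U : Subgroup G} (f : G →* H)
    (hU : ¬ p ∣ Nat.card U) : ¬ p ∣ Nat.card (U.map f) :=
  fun h => hU (h.trans (U.card_map_dvd f))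

theorem map_mem_normalizer {H : Type*} [Group H] {U : Subgroup G} (f : G →* H) {g : G}
    (hg : g ∈ Subgroup.normalizer (U : Set G)) :
    f g ∈ Subgroup.normalizer ((U.map f : Subgroup H) : Set H) :=
  Subgroup.le_normalizer_map f (Subgroup.mem_map_of_mem f hg)

/-- The moving part of an element that fixes a set of translation parts is trivial. -/
theorem commute_of_translate {t o l : G} (hl : Commute t l) (e : t * o * t⁻¹ = l * o)
    (hlp : ∃ k, orderOf l = p ^ k) (ht : ¬ p ∣ orderOf t) : Commute t o := by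
  have hpow : ∀ i : ℕ, t ^ i * o * (t ^ i)⁻¹ = l ^ i * o := by
    intro i
    induction i with
    | zero => simp
    | succ i ih =>
      have hli : Commute t (l ^ i) := hl.pow_right i
      calc t ^ (i + 1) * o * (t ^ (i + 1))⁻¹ = t * (t ^ i * o * (t ^ i)⁻¹) * t⁻¹ := by
            rw [pow_succ', mul_inv_rev]; group
        _ = t * l ^ i * o * t⁻¹ := by rw [ih]; group
        _ = l ^ i * (t * o * t⁻¹) := by rw [hli.eq]; group
        _ = l ^ (i + 1) * o := by rw [e, pow_succ]; group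
  have h1 := hpow (orderOf t)
  rw [pow_orderOf_eq_one, one_mul, inv_one, mul_one] at h1
  have h2 : l ^ orderOf t = 1 := mul_eq_right.1 h1.symm
  obtain ⟨k, hk⟩ := hlp
  have h3 : l = 1 := by
    rcases Nat.eq_zero_or_pos k with rfl | hpos
    · simpa using hk
    · exact absurd ((dvd_pow_self p hpos.ne').trans (hk ▸ orderOf_dvd_of_pow_eq_one h2)) ht
  rw [h3, one_mul] at e
  exact mul_inv_eq_iff_eq_mul.1 e

/-- The quotient by the `p'`-core of a `p`-solvable group is constrained. -/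
theorem constrained_quotient (hG : Cfsg.IsPSolvable p G) [(Cfsg.pPrimeCore p G).Normal] :
    Subgroup.centralizer (Cfsg.pCore p (G ⧸ Cfsg.pPrimeCore p G) : Set (G ⧸ Cfsg.pPrimeCore p G)) ≤
      Cfsg.pCore p (G ⧸ Cfsg.pPrimeCore p G) :=
  H59.centralizer_pCore_le_of_isPSolvable
    (H84.isPSolvable_of_surjective _ (QuotientGroup.mk'_surjective _) hG)
    (H19.pPrimeCore_quotient_pPrimeCore p)

/-- In a `p`-solvable group a `p'`-subgroup normalized by a Sylow subgroup lies in the core. -/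
theorem le_core_of_sylow_normalizes (hG : Cfsg.IsPSolvable p G) {U : Subgroup G}
    (hU : ¬ p ∣ Nat.card U) (S : Sylow p G)
    (hS : (S : Subgroup G) ≤ Subgroup.normalizer (U : Set G)) : U ≤ Cfsg.pPrimeCore p G := by
  haveI := H19.pPrimeCore_normal p G
  set f := QuotientGroup.mk' (Cfsg.pPrimeCore p G)
  haveI := H19.pCore_normal p (G ⧸ Cfsg.pPrimeCore p G)
  set O := Cfsg.pCore p (G ⧸ Cfsg.pPrimeCore p G)
  intro u hu
  refine (QuotientGroup.eq_one_iff u).1 (eq_one_of_mem (R := O) (H19.pCore_isPGroup p)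
    (not_dvd_card_map f hU) (constrained_quotient hG (Subgroup.mem_centralizer_iff.2 fun o ho => ?_))
    (Subgroup.mem_map_of_mem f hu))
  obtain ⟨s, hs, rfl⟩ := Subgroup.mem_map.1
    (H19.pCore_le_sylow (S.mapSurjective (QuotientGroup.mk'_surjective _)) ho)
  exact ((commute_of_normalizes (H19.pCore_isPGroup p) (not_dvd_card_map f hU) ho
    (map_mem_normalizer f (hS hs)) (Subgroup.mem_map_of_mem f hu)).eq).symm

end Cfsg.Agent.H92.Pairs
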