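import Cfsg.Agent.H92.Pairs.Basic
import Cfsg.Agent.H35.Constrained

/-!
# The weak closure of a central element of order `p`

In a group all of whose proper subgroups are `p`-solvable and in which no two Sylow subgroups
generate, the conjugates of a central element of order `p` lie in `O_{p',p}` of every proper
subgroup.
-/

set_option autoImplicit false
set_option linter.unusedSectionVars false

namespace Cfsg.Agent.H92.Pairs

variable {G : Type*} [Group G] [Finite G] {p : ℕ} [hp : Fact p.Prime]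

/-- The configuration. -/
structure Conf (p : ℕ) (P : Sylow p G) (z : G) : Prop where
  proper : ∀ X : Subgroup G, X ≠ ⊤ → Cfsg.IsPSolvable p X
  pairs : ∀ S T : Sylow p G, (S : Subgroup G) ⊔ (T : Subgroup G) ≠ ⊤
  mem : z ∈ (P : Subgroup G)
  central : ∀ x ∈ (P : Subgroup G), z * x = x * z
  order : orderOf z = p
  center : Subgroup.center G = ⊥

variable {P : Sylow p G} {z : G}

/-- The preimage of `O_p` of the quotient by the `p'`-core. -/
def opp (p : ℕ) (X : Type*) [Group X] [Finite X] : Subgroup X :=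
  haveI := H19.pPrimeCore_normal p X
  (Cfsg.pCore p (X ⧸ Cfsg.pPrimeCore p X)).comap (QuotientGroup.mk' (Cfsg.pPrimeCore p X))

theorem mem_opp {X : Type*} [Group X] [Finite X] [(Cfsg.pPrimeCore p X).Normal] {x : X} :
    x ∈ opp p X ↔
      QuotientGroup.mk' (Cfsg.pPrimeCore p X) x ∈ Cfsg.pCore p (X ⧸ Cfsg.pPrimeCore p X) :=
  Iff.rfl

theorem orderOf_conjugate {x y : G} (h : IsConj x y) : orderOf y = orderOf x := by
  obtain ⟨a, rfl⟩ := isConj_iff.1 h
  exact orderOf_injective (MulAut.conj a).toMonoidHom (MulAut.conj a).injective x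

theorem Conf.conj_pow (hc : Conf p P z) {v : G} (h : IsConj z v) : v ^ p = 1 := by
  rw [← hc.order, ← orderOf_conjugate h, pow_orderOf_eq_one]

theorem Conf.centralizer_ne_top (hc : Conf p P z) {v : G} (h : v ≠ 1) :
    Subgroup.centralizer ({v} : Set G) ≠ ⊤ := by
  intro e
  refine h ?_
  have : v ∈ Subgroup.center G := Subgroup.mem_center_iff.2 fun g =>
    Subgroup.mem_centralizer_singleton_iff.1 (show g ∈ Subgroup.centralizer ({v} : Set G) by simp [e])
  rwa [hc.center, Subgroup.mem_bot] at this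

theorem Conf.ne_one (hc : Conf p P z) {v : G} (h : IsConj z v) : v ≠ 1 := by
  rintro rfl
  have := orderOf_conjugate h
  rw [orderOf_one, hc.order] at this
  exact hp.out.one_lt.ne this

theorem mem_smul_iff (a : G) {x : G} :
    x ∈ ((a • P : Sylow p G) : Subgroup G) ↔ a⁻¹ * x * a ∈ (P : Subgroup G) := by
  rw [Sylow.coe_subgroup_smul]
  simp [Subgroup.mem_pointwise_smul_iff_inv_smul_mem, MulAut.smul_def, MulAut.conj_inv_apply]

theorem Conf.commute_conj (hc : Conf p P z) (a : G) {x : G}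
    (hx : x ∈ ((a • P : Sylow p G) : Subgroup G)) : Commute (a * z * a⁻¹) x := by
  have h := hc.central _ ((mem_smul_iff a).1 hx)
  show a * z * a⁻¹ * x = x * (a * z * a⁻¹)
  calc a * z * a⁻¹ * x = a * (z * (a⁻¹ * x * a)) * a⁻¹ := by group
    _ = a * ((a⁻¹ * x * a) * z) * a⁻¹ := by rw [h]
    _ = _ := by group

/-- In `X` containing the Sylow `a • P`, the element `a z a⁻¹` lies in `O_{p',p}(X)`. -/
theorem Conf.central_mem_opp (hc : Conf p P z) (a : G) {X : Subgroup G} (hX : X ≠ ⊤)
    (hle : ((a • P : Sylow p G) : Subgroup G) ≤ X) (v : X) (hv : (v : G) = a * z * a⁻¹) :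
    v ∈ opp p X := by
  haveI := H19.pPrimeCore_normal p X
  rw [mem_opp]
  refine constrained_quotient (hc.proper X hX) (Subgroup.mem_centralizer_iff.2 fun o ho => ?_)
  obtain ⟨s, hs, rfl⟩ := Subgroup.mem_map.1 (H19.pCore_le_sylow
    (((a • P).subtype hle).mapSurjective (QuotientGroup.mk'_surjective _)) ho)
  rw [← map_mul, ← map_mul]
  congr 1
  apply Subtype.ext
  rw [Subgroup.coe_mul, Subgroup.coe_mul, hv]
  exact (hc.commute_conj a (Subgroup.mem_subgroupOf.1 hs)).eq.symm

/-- Two conjugates of `z` commute modulo a `p'`-subgroup normalized by Sylow subgroups. -/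
theorem Conf.pair_kernel (hc : Conf p P z) (a b : G) :
    ∃ Y : Subgroup G, ¬ p ∣ Nat.card Y ∧
      a * z * a⁻¹ * (b * z * b⁻¹) * (a * z * a⁻¹)⁻¹ * (b * z * b⁻¹)⁻¹ ∈ Y ∧
      ((a • P : Sylow p G) : Subgroup G) ≤ Subgroup.normalizer (Y : Set G) := by
  set X := ((a • P : Sylow p G) : Subgroup G) ⊔ ((b • P : Sylow p G) : Subgroup G) with hXdef
  have hX : X ≠ ⊤ := hc.pairs _ _
  have ha : ((a • P : Sylow p G) : Subgroup G) ≤ X := le_sup_left
  have hb : ((b • P : Sylow p G) : Subgroup G) ≤ X := le_sup_right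
  have hzs : ∀ c : G, c * z * c⁻¹ ∈ ((c • P : Sylow p G) : Subgroup G) := fun c =>
    (mem_smul_iff c).2 (by simpa [mul_assoc] using hc.mem)
  haveI := H19.pPrimeCore_normal p X
  let v : X := ⟨_, ha (hzs a)⟩
  let w : X := ⟨_, hb (hzs b)⟩
  refine ⟨(Cfsg.pPrimeCore p X).map X.subtype, ?_, ?_, ha.trans ?_⟩
  · rw [Subgroup.card_map_of_injective X.subtype_injective]
    exact hp.out.coprime_iff_not_dvd.1 (H19.pPrimeCore_coprime p).symm
  · refine ⟨v * w * v⁻¹ * w⁻¹, (QuotientGroup.eq_one_iff _).1 ?_, rfl⟩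
    obtain ⟨s, hs, hsw⟩ := Subgroup.mem_map.1 (H19.pCore_le_sylow
      (((a • P).subtype ha).mapSurjective (QuotientGroup.mk'_surjective _))
      (mem_opp.1 (hc.central_mem_opp b hX hb w rfl)))
    have hcomm : Commute v s := Subtype.ext (hc.commute_conj a (Subgroup.mem_subgroupOf.1 hs)).eq
    show QuotientGroup.mk' (Cfsg.pPrimeCore p X) (v * w * v⁻¹ * w⁻¹) = 1
    rw [map_mul, map_mul, map_mul, map_inv, map_inv, ← hsw, ← map_inv, ← map_inv, ← map_mul,
      ← map_mul, ← map_mul, hcomm.eq]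
    rw [mul_inv_cancel_right, mul_inv_cancel, map_one]
  · refine le_trans ?_ (Subgroup.le_normalizer_map X.subtype)
    intro x hx
    exact ⟨⟨x, hx⟩, by rw [Subgroup.normalizer_eq_top]; trivial, rfl⟩

/-- Conjugates of `z` in a common `p`-subgroup commute. -/
theorem Conf.commute_of_pGroup (hc : Conf p P z) {R : Subgroup G} (hR : IsPGroup p R) {v w : G}
    (hv : IsConj z v) (hw : IsConj z w) (hvR : v ∈ R) (hwR : w ∈ R) : Commute v w := by
  obtain ⟨a, rfl⟩ := isConj_iff.1 hv
  obtain ⟨b, rfl⟩ := isConj_iff.1 hw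
  obtain ⟨Y, hY, hcY, -⟩ := hc.pair_kernel a b
  have h := eq_one_of_mem hR hY
    (mul_mem (mul_mem (mul_mem hvR hwR) (inv_mem hvR)) (inv_mem hwR)) hcY
  exact mul_inv_eq_iff_eq_mul.1 (mul_inv_eq_one.1 h)

/-- A conjugate `v` of `z` is central in a Sylow subgroup containing a given `p`-subgroup
centralizing `v`. -/
theorem Conf.exists_central_sylow (hc : Conf p P z) {v : G} (hv : IsConj z v) {R : Subgroup G}
    (hR : IsPGroup p R) (hRv : ∀ x ∈ R, Commute v x) :
    ∃ a : G, a * z * a⁻¹ = v ∧ R ≤ ((a • P : Sylow p G) : Subgroup G) := by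
  obtain ⟨a, rfl⟩ := isConj_iff.1 hv
  set C := Subgroup.centralizer ({a * z * a⁻¹} : Set G)
  have hPC : ((a • P : Sylow p G) : Subgroup G) ≤ C := fun x hx =>
    Subgroup.mem_centralizer_singleton_iff.2 (hc.commute_conj a hx).eq.symm
  have hRC : R ≤ C := fun x hx => Subgroup.mem_centralizer_singleton_iff.2 (hRv x hx).eq.symm
  obtain ⟨Q, hQ⟩ := (hR.comap_of_injective C.subtype C.subtype_injective).exists_le_sylow
  obtain ⟨c, rfl⟩ := MulAction.exists_smul_eq C ((a • P).subtype hPC) Q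
  refine ⟨(c : G) * a, ?_, fun x hx => ?_⟩
  · calc (c : G) * a * z * ((c : G) * a)⁻¹ = (c : G) * (a * z * a⁻¹) * (c : G)⁻¹ := by group
      _ = _ := by rw [Subgroup.mem_centralizer_singleton_iff.1 c.2, mul_inv_cancel_right]
  · have h1 : (⟨x, hRC hx⟩ : C) ∈ ((c • (a • P).subtype hPC : Sylow p C) : Subgroup C) := hQ hx
    rw [mem_smul_iff] at h1
    have h2 := (mem_smul_iff a).1 (Subgroup.mem_subgroupOf.1 h1)
    rw [mem_smul_iff]
    convert h2 using 1
    simp only [Subgroup.coe_mul, Subgroup.coe_inv]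
    group

/-- The weak closure of `z` in a Sylow subgroup. -/
def wcl (z : G) (S : Subgroup G) : Subgroup G := Subgroup.closure {v | IsConj z v ∧ v ∈ S}

theorem wcl_le (z : G) (S : Subgroup G) : wcl z S ≤ S :=
  (Subgroup.closure_le _).2 fun _ h => h.2

theorem mem_wcl {v : G} {S : Subgroup G} (h : IsConj z v) (hv : v ∈ S) : v ∈ wcl z S :=
  Subgroup.subset_closure ⟨h, hv⟩

/-- Two commuting generators commute with everything. -/
theorem Conf.wcl_comm (hc : Conf p P z) {S : Subgroup G} (hS : IsPGroup p S) {x y : G}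
    (hx : x ∈ wcl z S) (hy : y ∈ wcl z S) : Commute x y := by
  have h1 : ∀ w, IsConj z w ∧ w ∈ S → wcl z S ≤ Subgroup.centralizer ({w} : Set G) := by
    intro w hw
    refine (Subgroup.closure_le _).2 fun v hv => ?_
    exact Subgroup.mem_centralizer_singleton_iff.2
      (hc.commute_of_pGroup hS hv.1 hw.1 hv.2 hw.2).eq
  have h2 : wcl z S ≤ Subgroup.centralizer ({x} : Set G) :=
    (Subgroup.closure_le _).2 fun w hw => Subgroup.mem_centralizer_singleton_iff.2
      (Subgroup.mem_centralizer_singleton_iff.1 (h1 w hw hx)).symm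
  exact (Subgroup.mem_centralizer_singleton_iff.1 (h2 hy)).symm

end Cfsg.Agent.H92.Pairs
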