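import Cfsg.Agent.H25.Jordan
import Cfsg.Agent.H26.CharOrtho
import Cfsg.Agent.H43.CharTools
import Mathlib

/-!
# An inequality for character sums over commutators with a subgroup
-/

set_option autoImplicit false
set_option linter.unusedSectionVars false

namespace Cfsg.Agent.H92.Pairs

open scoped Matrix
open Cfsg

variable {G : Type*} [Group G] [Finite G]

theorem exists_unitary_matrix (χ : IrrCharacter G) :
    ∃ (n : ℕ) (M : G →* Matrix (Fin n) (Fin n) ℂ),
      (∀ g, (M g)ᴴ = M g⁻¹) ∧ ∀ g, χ.1 g = Matrix.trace (M g) := by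
  haveI := Fintype.ofFinite G
  obtain ⟨n, ρ, -, e⟩ := χ.2
  obtain ⟨σ, eq, he, hσ⟩ := H25.exists_unitary_form ρ
  set Φ := Matrix.toEuclideanCLM (n := Fin n) (𝕜 := ℂ)
  refine ⟨n, ⟨⟨fun g => Φ.symm (σ g), by simp⟩, fun a b => by simp⟩, fun g => ?_, fun g => ?_⟩
  · show star (Φ.symm (σ g)) = Φ.symm (σ g⁻¹)
    rw [← map_star]
    congr 1
    have h1 : star (σ g) * σ g = 1 := by
      rw [ContinuousLinearMap.star_eq_adjoint]
      exact (σ g).norm_map_iff_adjoint_comp_self.1 (hσ g)
    have h2 : σ g * σ g⁻¹ = 1 := by rw [← map_mul, mul_inv_cancel, map_one]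
    exact left_inv_eq_right_inv h1 h2
  · show χ.1 g = Matrix.trace (Φ.symm (σ g))
    have h1 : ((σ g : EuclideanSpace ℂ (Fin n) →L[ℂ] EuclideanSpace ℂ (Fin n)) :
        EuclideanSpace ℂ (Fin n) →ₗ[ℂ] EuclideanSpace ℂ (Fin n)) = eq.conj (ρ g) := by
      refine LinearMap.ext fun w => ?_
      obtain ⟨v, rfl⟩ := eq.surjective w
      simp [he]
    have h2 : Matrix.toEuclideanLin (Φ.symm (σ g)) = eq.conj (ρ g) := by
      rw [← h1, ← Matrix.coe_toEuclideanCLM_eq_toEuclideanLin]
      simp [Φ]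
    rw [← e]
    show LinearMap.trace ℂ _ (ρ g) = _
    rw [← LinearMap.trace_conj' (ρ g) eq, ← h2,
      LinearMap.trace_eq_matrix_trace ℂ (EuclideanSpace.basisFun (Fin n) ℂ).toBasis,
      Matrix.toEuclideanLin_eq_toLin_orthonormal, LinearMap.toMatrix_toLin]

theorem trace_self_nonneg {n : ℕ} (Y : Matrix (Fin n) (Fin n) ℂ) :
    0 ≤ (Matrix.trace (Yᴴ * Y)).re := by
  simp only [Matrix.trace, Matrix.diag_apply, Matrix.mul_apply, Matrix.conjTranspose_apply,
    Complex.re_sum]
  refine Finset.sum_nonneg fun i _ => Finset.sum_nonneg fun j _ => ?_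
  rw [RCLike.star_def, ← Complex.normSq_eq_conj_mul_self, Complex.ofReal_re]
  exact Complex.normSq_nonneg _

/-- Twice the sum of a character over a subgroup exceeds the sum over its commutators with an
element by at most the order of the subgroup times the degree. -/
theorem sum_commutator_ge (χ : IrrCharacter G) (D : Subgroup G) [Fintype D] (k : G) :
    2 * (∑ a : D, χ.1 a).re - (Fintype.card D : ℝ) * (χ.1 1).re ≤
      (∑ a : D, χ.1 (k * a * k⁻¹ * (a : G)⁻¹)).re := by
  classical
  obtain ⟨n, M, hH, hχ⟩ := exists_unitary_matrix χ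
  set q : ℕ := Fintype.card D with hq
  set Q : Matrix (Fin n) (Fin n) ℂ := ∑ a : D, M a with hQ
  set W := M k⁻¹ with hW
  set W' := M k with hW'
  have hWH : Wᴴ = W' := by rw [hW, hH, inv_inv]
  have hW'W : W' * W = 1 := by rw [hW, hW', ← map_mul, mul_inv_cancel, map_one]
  have hWW' : W * W' = 1 := by rw [hW, hW', ← map_mul, inv_mul_cancel, map_one]
  have hQl : ∀ a : D, M a * Q = Q := fun a => by
    rw [hQ, Finset.mul_sum]
    exact Fintype.sum_equiv (Equiv.mulLeft a) _ _ fun b => by simp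
  have hQr : ∀ a : D, Q * M a = Q := fun a => by
    rw [hQ, Finset.sum_mul]
    exact Fintype.sum_equiv (Equiv.mulRight a) _ _ fun b => by simp
  have hQQ : Q * Q = (q : ℂ) • Q := by
    conv_lhs => arg 1; rw [hQ]
    rw [Finset.sum_mul, Finset.sum_congr rfl fun a _ => hQl a, Finset.sum_const, Finset.card_univ,
      hq, ← Nat.cast_smul_eq_nsmul ℂ]
  have hQH : Qᴴ = Q := by
    rw [hQ, Matrix.conjTranspose_sum]
    exact Fintype.sum_equiv (Equiv.inv D) _ _ fun a => by simp [hH]
  set s := Matrix.trace Q with hs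
  set R := Matrix.trace (Q * W' * Q * W) with hR
  -- the first square
  set F : Matrix (Fin n) (Fin n) ℂ := (q : ℂ) • 1 - Q with hF
  have hFH : Fᴴ = F := by simp [hF, hQH]
  have hFF : F * F = (q : ℂ) • F := by
    simp only [hF, sub_mul, mul_sub, smul_mul_assoc, mul_smul_comm, one_mul, mul_one, hQQ,
      smul_sub]
    abel
  have hFW : Matrix.trace (F * W' * F * W) = (q : ℂ) * q * n - 2 * q * s + R := by
    simp only [hF, sub_mul, mul_sub, smul_mul_assoc, mul_smul_comm, one_mul, mul_one,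
      Matrix.trace_sub, Matrix.trace_smul, smul_sub, smul_eq_mul]
    rw [hW'W, Matrix.mul_assoc Q W' W, hW'W, mul_one, Matrix.trace_mul_comm (W' * Q) W,
      ← Matrix.mul_assoc W W' Q, hWW', one_mul, Matrix.trace_one, Fintype.card_fin]
    ring
  have h1 : 0 ≤ ((q : ℂ) * q * n - 2 * q * s + R).re := by
    have h := trace_self_nonneg (F * W * F)
    rw [Matrix.conjTranspose_mul, Matrix.conjTranspose_mul, hFH, hWH] at h
    rw [show F * (W' * F) * (F * W * F) = F * W' * (F * F) * W * F by simp only [mul_assoc],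
      hFF, Matrix.trace_mul_comm _ F] at h
    simp only [mul_smul_comm, smul_mul_assoc, ← mul_assoc, hFF, Matrix.trace_smul, smul_eq_mul,
      hFW] at h
    rw [show (q : ℂ) * q * ((q : ℂ) * q * n - 2 * q * s + R) =
      (((q : ℝ) * q : ℝ) : ℂ) * ((q : ℂ) * q * n - 2 * q * s + R) by push_cast; ring,
      Complex.re_ofReal_mul] at h
    refine nonneg_of_mul_nonneg_right h ?_
    have : 0 < q := hq ▸ Fintype.card_pos
    positivity
  -- the second square
  set S : Matrix (Fin n) (Fin n) ℂ := ∑ a : D, M a * W * M (a : G)⁻¹ with hS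
  have hQS : Q * S = Q * W * Q := by
    rw [hS, Finset.mul_sum]
    conv_rhs => arg 2; rw [hQ]
    rw [Finset.mul_sum]
    refine Fintype.sum_equiv (Equiv.inv D) _ _ fun a => ?_
    rw [← mul_assoc, ← mul_assoc, hQr]
    simp
  have hSQ : Sᴴ * Q = Q * W' * Q := by
    have := congrArg Matrix.conjTranspose hQS
    simpa [Matrix.conjTranspose_mul, hQH, hWH, mul_assoc] using this
  set L := ∑ a : D, χ.1 (k * a * k⁻¹ * (a : G)⁻¹) with hL
  have hSS : Matrix.trace (Sᴴ * S) = (q : ℂ) * L := by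
    rw [hS, Matrix.conjTranspose_sum, Finset.sum_mul, Matrix.trace_sum,
      Finset.sum_congr rfl (g := fun _ => L) fun a _ => ?_, Finset.sum_const, Finset.card_univ,
      nsmul_eq_mul]
    rw [Finset.mul_sum, Matrix.trace_sum, hL]
    refine Fintype.sum_equiv (Equiv.mulLeft a⁻¹) _ _ fun b => ?_
    simp only [Matrix.conjTranspose_mul, hH, hW, ← map_mul, ← hχ, inv_inv]
    rw [← H26.irr_conj χ _ (a : G)⁻¹]
    simp only [Equiv.coe_mulLeft, Subgroup.coe_mul, Subgroup.coe_inv, mul_inv_rev, inv_inv]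
    group
  have h2 : 0 ≤ ((q : ℂ) * L - R).re := by
    have h := trace_self_nonneg ((q : ℂ) • S - Q * W * Q)
    have eX : (Q * W * Q)ᴴ = Q * W' * Q := by
      rw [Matrix.conjTranspose_mul, Matrix.conjTranspose_mul, hQH, hWH, mul_assoc]
    have e1 : Matrix.trace (Sᴴ * (Q * W * Q)) = (q : ℂ) * R := by
      rw [← mul_assoc, ← mul_assoc, hSQ, Matrix.trace_mul_comm _ Q]
      simp only [← mul_assoc, hQQ, smul_mul_assoc, Matrix.trace_smul, smul_eq_mul, hR]
    have e2 : Matrix.trace (Q * W' * Q * S) = (q : ℂ) * R := by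
      rw [mul_assoc (Q * W') Q S, hQS,
        show Q * W' * (Q * W * Q) = (Q * W' * Q * W) * Q by simp only [mul_assoc],
        Matrix.trace_mul_comm _ Q]
      simp only [← mul_assoc, hQQ, smul_mul_assoc, Matrix.trace_smul, smul_eq_mul, hR]
    have e3 : Matrix.trace (Q * W' * Q * (Q * W * Q)) = (q : ℂ) * q * R := by
      rw [show Q * W' * Q * (Q * W * Q) = Q * W' * (Q * Q) * W * Q by simp only [mul_assoc],
        hQQ, Matrix.trace_mul_comm _ Q]
      simp only [mul_smul_comm, smul_mul_assoc, ← mul_assoc, hQQ, Matrix.trace_smul, smul_eq_mul, hR]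
    rw [Matrix.conjTranspose_sub, Matrix.conjTranspose_smul, eX] at h
    simp only [sub_mul, mul_sub, smul_mul_assoc, mul_smul_comm, Matrix.trace_sub, smul_sub,
      Matrix.trace_smul, smul_eq_mul, Complex.conj_natCast, RCLike.star_def, hSS, e1, e2, e3] at h
    ring_nf at h
    rw [show -((q : ℂ) ^ 2 * R) + (q : ℂ) ^ 3 * L = (((q : ℝ) ^ 2 : ℝ) : ℂ) * ((q : ℂ) * L - R) by
      push_cast; ring, Complex.re_ofReal_mul] at h
    refine nonneg_of_mul_nonneg_right h ?_
    have : 0 < q := hq ▸ Fintype.card_pos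
    positivity
  have hd : χ.1 1 = n := by rw [hχ, map_one, Matrix.trace_one, Fintype.card_fin]
  have hsσ : s = ∑ a : D, χ.1 a := by
    rw [hs, hQ, Matrix.trace_sum]; simp [hχ]
  rw [← hsσ, hd, Complex.natCast_re]
  simp only [Complex.sub_re, Complex.add_re, Complex.mul_re, Complex.mul_im, Complex.natCast_re,
    Complex.natCast_im, Complex.re_ofNat, Complex.im_ofNat, zero_mul, mul_zero, sub_zero,
    add_zero] at h1 h2
  have hq0 : (0 : ℝ) < q := by
    have : 0 < q := hq ▸ Fintype.card_pos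
    exact_mod_cast this
  exact le_of_mul_le_mul_left (by linarith) hq0

end Cfsg.Agent.H92.Pairs
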