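import Cfsg.Agent.H92.Pairs.Local
import Cfsg.Agent.H92.Pairs.Trace
import Cfsg.Agent.H92.EC.Product

/-!
# Character sums over the weak closure
-/

set_option autoImplicit false
set_option linter.unusedSectionVars false

open scoped ComplexConjugate

namespace Cfsg.Agent.H92.Pairs

open Cfsg

variable {G : Type*} [Group G] [Fintype G] {p : ℕ} [hp : Fact p.Prime] {P : Sylow p G} {z : G}

/-- The character sum over a subgroup is a multiple of its order. -/
theorem exists_sum_eq (χ : IrrCharacter G) (D : Subgroup G) [Fintype D] :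
    ∃ m : ℕ, ∑ a : D, χ.1 a = ((Fintype.card D * m : ℕ) : ℂ) := by
  classical
  refine ⟨H43.mult (fun u : D => χ.1 u) (H26.oneIrr D), ?_⟩
  rw [Nat.cast_mul, ← Nat.card_eq_fintype_card, ← H43.classInner_eq_mult (φ := fun u : D => χ.1 u)
      (H26.isCharacter_comp (H26.irr_isCharacter χ) D.subtype) (H26.oneIrr D),
    Cfsg.classInner, mul_inv_cancel_left₀ (Nat.cast_ne_zero.2 Nat.card_pos.ne')]
  simp [H26.oneIrr_val]

/-- Double sums over the weak closure, translated. -/
theorem Conf.sum_pair (hc : Conf p P z) {M : Ideal AlgInt} (hM : IsPModular p M) (g : G)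
    {D : Subgroup G} (hD : D = wcl z (P : Subgroup G)) [Fintype D] :
    ∃ k : G, (∀ a : D, ¬ p ∣ orderOf (k * a * k⁻¹ * (a : G)⁻¹)) ∧
      (∃ n ∈ Subgroup.normalizer (D : Set G), g = k * n) ∧
      (∀ χ : IrrCharacter G, χ ∈ principalBlock M G → ∀ a b : D,
        a * b ≠ 1 → χ.1 (k * a * k⁻¹ * b) = χ.1 ((a * b : D) : G)) ∧
      ∀ χ : IrrCharacter G, χ ∈ principalBlock M G →
        ∑ a : D, ∑ b : D, χ.1 (g * a * g⁻¹ * b) =
          (Fintype.card D : ℂ) *
              ((∑ a : D, χ.1 a) - χ.1 1) +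
            ∑ a : D, χ.1 (k * a * k⁻¹ * (a : G)⁻¹) := by
  classical
  obtain ⟨K, hK, hPK, k, hk, hn⟩ := hc.exists_kernel g
  rw [← hD] at hn
  have hmemK : ∀ a : D, k * a * k⁻¹ * (a : G)⁻¹ ∈ K := fun a => by
    rw [show k * a * k⁻¹ * (a : G)⁻¹ = k * ((a : G) * k⁻¹ * (a : G)⁻¹) by group]
    exact mul_mem hk (conj_mem (hPK (wcl_le z _ (hD ▸ a.2 : (a : G) ∈ wcl z (P : Subgroup G)))) (inv_mem hk))
  have hval : ∀ χ : IrrCharacter G, χ ∈ principalBlock M G → ∀ a b : D, a * b ≠ 1 →
      χ.1 (k * a * k⁻¹ * b) = χ.1 ((a * b : D) : G) := fun χ hχ a b hab => by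
    rw [show k * a * k⁻¹ * (b : G) = (k * a * k⁻¹ * (a : G)⁻¹) * ((a : G) * b) by group,
      ← Subgroup.coe_mul]
    exact hc.sect hM hχ (hD ▸ (a * b).2 : ((a * b : D) : G) ∈ wcl z (P : Subgroup G)) (fun h => hab (Subtype.ext h)) hK hPK (hmemK a)
  refine ⟨k, fun a hd => hK (hd.trans (by
    simpa using orderOf_dvd_natCard (⟨_, hmemK a⟩ : K))), ⟨k⁻¹ * g, hn, by group⟩, hval,
    fun χ hχ => ?_⟩
  let e : D ≃ D := Equiv.ofBijective (fun a => ⟨k⁻¹ * g * a * (k⁻¹ * g)⁻¹, conj_mem hn a.2⟩)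
    (Finite.injective_iff_bijective.1 fun a b h => Subtype.ext
      (mul_left_cancel (mul_right_cancel (congrArg Subtype.val h))))
  have h1 : ∑ a : D, ∑ b : D, χ.1 (g * a * g⁻¹ * b) =
      ∑ a : D, ∑ b : D, χ.1 (k * a * k⁻¹ * b) :=
    Fintype.sum_equiv e _ _ fun a => Finset.sum_congr rfl fun b _ => by
      show χ.1 _ = χ.1 (k * (k⁻¹ * g * a * (k⁻¹ * g)⁻¹) * k⁻¹ * b)
      group
  have h2 : ∀ a : D, ∑ b : D, χ.1 (k * a * k⁻¹ * b) =
      χ.1 (k * a * k⁻¹ * (a : G)⁻¹) + ((∑ c : D, χ.1 c) - χ.1 1) := by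
    intro a
    rw [← Finset.add_sum_erase _ _ (Finset.mem_univ a⁻¹), Subgroup.coe_inv,
      Finset.sum_congr rfl fun b hb => hval χ hχ a b
        (fun h => (Finset.mem_erase.1 hb).1 (eq_inv_of_mul_eq_one_right h))]
    congr 1
    rw [Finset.sum_erase_eq_sub (Finset.mem_univ _), mul_inv_cancel, Subgroup.coe_one]
    congr 1
    exact Fintype.sum_equiv (Equiv.mulLeft a) _ _ fun b => rfl
  rw [h1, Finset.sum_congr rfl fun a _ => h2 a, Finset.sum_add_distrib, Finset.sum_const,
    Finset.card_univ, nsmul_eq_mul, add_comm]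

/-- A lower bound for the squared values on the weak closure. -/
theorem Conf.sum_sq_ge (hc : Conf p P z) {M : Ideal AlgInt} (hM : IsPModular p M)
    (hex : (∀ a ∈ (P : Subgroup G), ∀ b ∈ (P : Subgroup G), Commute a b) →
      ∀ u ∈ (P : Subgroup G), u ≠ 1 → ∃ w ∈ (P : Subgroup G), IsConj u w ∧ w ≠ u)
    {D : Subgroup G} (hD : D = wcl z (P : Subgroup G)) [Fintype D] [DecidableEq D] :
    ((Fintype.card D : ℝ) - 1) *
        (2 * Fintype.card D) ≤
      ∑ χ ∈ EC.B0 M G,
        Complex.normSq (∑ a ∈ (Finset.univ : Finset D).erase 1, χ.1 a) := by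
  classical
  have hDP : D ≤ (P : Subgroup G) := hD ▸ wcl_le z _
  set E := (Finset.univ : Finset D).erase 1 with hE
  have hord : ∀ a : D, ∃ j, orderOf (a : G) = p ^ j := fun a => by
    obtain ⟨j, hj⟩ := IsPGroup.iff_orderOf.1 P.isPGroup' ⟨(a : G), hDP a.2⟩
    exact ⟨j, by rwa [Subgroup.orderOf_mk] at hj⟩
  set Z : D → ℂ := fun a => ((E.filter fun b : D => IsConj (a : G) b).card : ℂ) *
    ∑ χ ∈ EC.B0 M G, χ.1 a * conj (χ.1 a) with hZ
  have hsum : ((∑ χ ∈ EC.B0 M G, Complex.normSq (∑ a ∈ E, χ.1 a) : ℝ) : ℂ) = ∑ a ∈ E, Z a := by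
    push_cast
    simp only [← Complex.mul_conj, map_sum, Finset.sum_mul_sum]
    rw [Finset.sum_comm]
    refine Finset.sum_congr rfl fun a ha => ?_
    rw [Finset.sum_comm, ← Finset.sum_filter_add_sum_filter_not E (fun b : D => IsConj (a : G) b),
      Finset.sum_eq_zero (s := E.filter fun b : D => ¬ IsConj (a : G) b)
        fun b hb => EC.sum_B0_section hM (hord a) (hord b) (Finset.mem_filter.1 hb).2, add_zero,
      Finset.sum_congr rfl fun b hb => Finset.sum_congr rfl fun χ _ => by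
        rw [← H26.irr_eq_of_isConj χ (Finset.mem_filter.1 hb).2],
      Finset.sum_const, nsmul_eq_mul]
  have hterm : ∀ a ∈ E, 2 * (Fintype.card D : ℝ) ≤ (Z a).re := by
    intro a ha
    have ha1 : (a : G) ≠ 1 := fun h => (Finset.mem_erase.1 ha).1 (Subtype.ext h)
    set U := (P : Subgroup G) ⊓ Subgroup.centralizer ({(a : G)} : Set G) with hU
    obtain ⟨n, hn, e⟩ := EC.exists_sum_B0_sq hM (hord a) U (P.isPGroup'.to_le inf_le_left)
      inf_le_right
    set c := (E.filter fun b : D => IsConj (a : G) b).card with hcdef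
    have hZa : (Z a).re = ((c * (Nat.card U * n) : ℕ) : ℝ) := by
      have h1 : Z a = ((c * (Nat.card U * n) : ℕ) : ℂ) := by
        simp only [hZ]
        rw [e, hcdef]
        push_cast
        rfl
      rw [h1, Complex.natCast_re]
    rw [hZa]
    have key : 2 * Fintype.card D ≤ c * Nat.card U := by
      rw [← Nat.card_eq_fintype_card]
      by_cases hDP' : D = (P : Subgroup G)
      · have hcomm : ∀ x ∈ (P : Subgroup G), ∀ y ∈ (P : Subgroup G), Commute x y := fun x hx y hy =>
          hc.wcl_comm P.isPGroup' (hD ▸ hDP'.symm ▸ hx) (hD ▸ hDP'.symm ▸ hy)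
        have hUP : U = (P : Subgroup G) := le_antisymm inf_le_left fun x hx =>
          ⟨hx, Subgroup.mem_centralizer_singleton_iff.2 (hcomm x hx _ (hDP a.2)).eq⟩
        rw [hUP, ← hDP']
        refine Nat.mul_le_mul_right _ ?_
        obtain ⟨w, hw, hcw, hne⟩ := hex hcomm a (hDP a.2) ha1
        refine Finset.one_lt_card.2 ⟨a, Finset.mem_filter.2 ⟨ha, IsConj.refl _⟩,
          ⟨w, hDP'.symm ▸ hw⟩, Finset.mem_filter.2 ⟨Finset.mem_erase.2 ⟨fun h => ?_,
            Finset.mem_univ _⟩, hcw⟩, fun h => hne (congrArg Subtype.val h).symm⟩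
        exact ha1 (isConj_one_left.1 (by rw [show w = 1 from congrArg Subtype.val h] at hcw; exact hcw))
      · refine le_trans (b := Nat.card (P : Subgroup G)) ?_ ?_
        · obtain ⟨k, hk⟩ := Subgroup.card_dvd_of_le hDP
          rw [hk, mul_comm 2]
          refine Nat.mul_le_mul_left _ (Nat.succ_le_of_lt ?_)
          by_contra! hk1
          refine hDP' (Subgroup.eq_of_le_of_card_ge hDP (hk ▸ ?_))
          calc Nat.card D * k ≤ Nat.card D * 1 := Nat.mul_le_mul_left _ hk1
            _ = _ := mul_one _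
        · haveI := Fintype.ofFinite (P : Subgroup G)
          rw [Nat.card_eq_fintype_card, ← Finset.card_univ]
          let F : ↥(P : Subgroup G) → D := fun x =>
            ⟨(x : G) * a * (x : G)⁻¹, conj_mem (hD ▸ sylow_le_normalizer_wcl x.2) a.2⟩
          refine le_trans (Finset.card_le_mul_card_image Finset.univ (Nat.card U) (f := F)
            fun b hb => ?_) ?_
          · obtain ⟨x0, -, hx0⟩ := Finset.mem_image.1 hb
            haveI := Fintype.ofFinite U
            rw [Nat.card_eq_fintype_card, ← Finset.card_univ]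
            refine Finset.card_le_card_of_injOn (fun x => if h : ((x0 : G)⁻¹ * x) ∈ U then ⟨_, h⟩ else 1)
              (fun _ _ => Finset.mem_coe.2 (Finset.mem_univ _)) fun x hx y hy hxy => ?_
            have hmem : ∀ w ∈ Finset.univ.filter (fun w => F w = b), (x0 : G)⁻¹ * w ∈ U := by
              intro w hw
              refine ⟨(P : Subgroup G).mul_mem ((P : Subgroup G).inv_mem x0.2) w.2, Subgroup.mem_centralizer_singleton_iff.2 ?_⟩
              have h1 : (w : G) * a * (w : G)⁻¹ = (x0 : G) * a * (x0 : G)⁻¹ :=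
                congrArg Subtype.val ((Finset.mem_filter.1 hw).2.trans hx0.symm)
              calc (x0 : G)⁻¹ * w * a = (x0 : G)⁻¹ * ((w : G) * a * (w : G)⁻¹) * w := by group
                _ = _ := by rw [h1]; group
            simp only [dif_pos (hmem x hx), dif_pos (hmem y hy), Subtype.mk.injEq,
              mul_right_inj] at hxy
            exact Subtype.ext hxy
          · rw [mul_comm]
            refine Nat.mul_le_mul_right _ (Finset.card_le_card fun b hb => ?_)
            obtain ⟨x, -, rfl⟩ := Finset.mem_image.1 hb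
            have hconj : IsConj (a : G) (F x : G) := isConj_iff.2 ⟨(x : G), rfl⟩
            refine Finset.mem_filter.2 ⟨Finset.mem_erase.2 ⟨fun h => ha1 ?_,
              Finset.mem_univ _⟩, hconj⟩
            rw [h, Subgroup.coe_one] at hconj
            exact isConj_one_left.1 hconj
    calc 2 * (Fintype.card D : ℝ) ≤ ((c * Nat.card U : ℕ) : ℝ) := by exact_mod_cast key
      _ ≤ _ := by
        exact_mod_cast Nat.mul_le_mul_left c (Nat.le_mul_of_pos_right _ hn)
  have hre := congrArg Complex.re hsum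
  rw [Complex.ofReal_re, Complex.re_sum] at hre
  rw [hre]
  have h := Finset.sum_le_sum hterm
  rw [Finset.sum_const, nsmul_eq_mul, hE, Finset.card_erase_of_mem (Finset.mem_univ _),
    Finset.card_univ, Nat.cast_sub Fintype.card_pos, Nat.cast_one] at h
  exact h

end Cfsg.Agent.H92.Pairs
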