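import Cfsg.Agent.H92.Pairs.Opp
import Cfsg.Agent.H92.EC.Block
import Cfsg.Agent.H92.EC.Basic
import Cfsg.Agent.H85.SylowCount

/-!
# The principal block is constant on the local sections
-/

set_option autoImplicit false
set_option linter.unusedSectionVars false

namespace Cfsg.Agent.H92.Pairs

open Cfsg

variable {G : Type*} [Group G] [Finite G] {p : ℕ} [hp : Fact p.Prime] {P : Sylow p G} {z : G}

theorem Conf.mem_wcl_self (hc : Conf p P z) : z ∈ wcl z (P : Subgroup G) :=
  mem_wcl (IsConj.refl z) hc.mem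

/-- The intersection of `P` with the centralizer of the weak closure is a Sylow subgroup of it. -/
theorem exists_sylow_centralizer :
    ∃ S : Sylow p (Subgroup.centralizer ((wcl z (P : Subgroup G) : Subgroup G) : Set G)),
      (S : Subgroup (Subgroup.centralizer ((wcl z (P : Subgroup G) : Subgroup G) : Set G))) =
        (P : Subgroup G).subgroupOf
          (Subgroup.centralizer ((wcl z (P : Subgroup G) : Subgroup G) : Set G)) := by
  set D := wcl z (P : Subgroup G) with hD
  set C := Subgroup.centralizer (D : Set G) with hC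
  set M := Subgroup.normalizer (D : Set G) with hM
  have hPM : (P : Subgroup G) ≤ M := sylow_le_normalizer_wcl
  have hCM : C ≤ M := Subgroup.centralizer_le_normalizer _
  haveI : (C.subgroupOf M).Normal := ⟨fun x hx m => by
    refine Subgroup.mem_subgroupOf.2 (Subgroup.mem_centralizer_iff.2 fun d hd => ?_)
    have h1 := Subgroup.mem_centralizer_iff.1 (Subgroup.mem_subgroupOf.1 hx) _
      (conj_mem (inv_mem m.2 : (m : G)⁻¹ ∈ M) hd)
    simp only [Subgroup.coe_mul, Subgroup.coe_inv] at h1 ⊢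
    calc d * ((m : G) * x * (m : G)⁻¹)
        = (m : G) * ((m : G)⁻¹ * d * ((m : G)⁻¹)⁻¹ * x) * (m : G)⁻¹ := by group
      _ = (m : G) * (x * ((m : G)⁻¹ * d * ((m : G)⁻¹)⁻¹)) * (m : G)⁻¹ := by rw [h1]
      _ = _ := by group⟩
  have h1 : ¬ p ∣ ((P : Subgroup G).subgroupOf C).index := fun h => (P.subtype hPM).not_dvd_index
    (h.trans (show (P : Subgroup G).relIndex C ∣ _ by
      rw [← Subgroup.relIndex_subgroupOf hCM,
        ← H85.relIndex_sup_normal ((P : Subgroup G).subgroupOf M) (C.subgroupOf M)]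
      exact Subgroup.relIndex_dvd_index_of_le le_sup_left))
  exact ⟨(P.2.comap_subtype (K := C)).toSylow h1, rfl⟩

/-- An element of a `p'`-subgroup normalized by `P` and centralizing an element of the weak closure
lies in the core of its centralizer. -/
theorem Conf.mem_core (hc : Conf p P z) {c : G} (hcD : c ∈ wcl z (P : Subgroup G)) (hc1 : c ≠ 1)
    {K : Subgroup G} (hK : ¬ p ∣ Nat.card K)
    (hPK : (P : Subgroup G) ≤ Subgroup.normalizer (K : Set G))
    {v : Subgroup.centralizer ({c} : Set G)} (hv : (v : G) ∈ K) :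
    v ∈ Cfsg.pPrimeCore p (Subgroup.centralizer ({c} : Set G)) := by
  revert v
  set D := wcl z (P : Subgroup G) with hD
  have hDP : D ≤ (P : Subgroup G) := wcl_le z _
  have hY : Subgroup.centralizer ({c} : Set G) ≠ ⊤ := hc.centralizer_ne_top hc1
  have hDY : D ≤ Subgroup.centralizer ({c} : Set G) := fun d hd =>
    Subgroup.mem_centralizer_singleton_iff.2 (hc.wcl_comm P.isPGroup' hd hcD).eq
  set Y := Subgroup.centralizer ({c} : Set G) with hYdef
  intro v hv
  haveI := H19.pPrimeCore_normal p Y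
  set N := Cfsg.pPrimeCore p Y with hN
  set f := QuotientGroup.mk' N with hf
  haveI := H19.pCore_normal p (Y ⧸ N)
  set O := Cfsg.pCore p (Y ⧸ N) with hO
  have hcon : Subgroup.centralizer (O : Set (Y ⧸ N)) ≤ O := constrained_quotient (hc.proper Y hY)
  have hOp : IsPGroup p O := H19.pCore_isPGroup p
  have hNp : ¬ p ∣ Nat.card N := hp.out.coprime_iff_not_dvd.1 (H19.pPrimeCore_coprime p).symm
  -- the weak closure lies in `O`
  have hDO : ∀ d : Y, (d : G) ∈ D → f d ∈ O := by
    have h1 : D ≤ (opp p Y).map Y.subtype := (Subgroup.closure_le _).2 fun w hw =>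
      ⟨⟨w, hDY (mem_wcl hw.1 hw.2)⟩, hc.conj_mem_opp hY hw.1, rfl⟩
    intro d hd
    obtain ⟨d', hd', e⟩ := h1 hd
    exact mem_opp.1 (Subtype.ext e ▸ hd')
  -- subgroups normalized by the weak closure
  have hdK : ∀ d ∈ D, ∀ u ∈ K, d * u * d⁻¹ ∈ K := fun d hd u hu => conj_mem (hPK (hDP hd)) hu
  have hcomm : ∀ d : Y, (d : G) ∈ D → ∀ u : Y, (u : G) ∈ K → Commute (f u) (f d) := by
    intro d hd u hu
    refine commute_of_normalizes hOp (U := (K.subgroupOf Y).map f) (not_dvd_card_map f fun h =>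
      hK (h.trans ?_)) (hDO d hd) (map_mem_normalizer f (mem_normalizer_of_conj_mem fun y hy =>
        hdK _ hd _ hy)) (Subgroup.mem_map_of_mem f hu)
    rw [← Subgroup.card_map_of_injective Y.subtype_injective]
    exact Subgroup.card_dvd_of_le ((Subgroup.subgroupOf_map_subtype K Y).le.trans inf_le_left)
  -- an element of the coset centralizing the weak closure
  set U0 := K ⊓ N.map Y.subtype with hU0
  have hU0p : ¬ p ∣ Nat.card U0 := fun h => hK (h.trans (Subgroup.card_dvd_of_le inf_le_left))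
  have hDU0 : D ≤ EC.NH U0 := fun d hd => mem_normalizer_of_conj_mem fun y hy => by
    obtain ⟨hy1, y', hy', rfl⟩ := hy
    exact ⟨hdK d hd _ hy1, ⟨d, hDY hd⟩ * y' * ⟨d, hDY hd⟩⁻¹,
      Subgroup.Normal.conj_mem inferInstance y' hy' _, rfl⟩
  obtain ⟨d0, hd0, hfix⟩ := EC.exists_fixed (P.isPGroup'.to_le hDP) hDU0 hU0p (w := (v : G))
    fun d hd => by
      refine ⟨K.mul_mem (K.inv_mem hv) (hdK d hd _ hv),
        v⁻¹ * (⟨d, hDY hd⟩ * v * ⟨d, hDY hd⟩⁻¹), (QuotientGroup.eq_one_iff _).1 ?_, rfl⟩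
      show f (v⁻¹ * (⟨d, hDY hd⟩ * v * ⟨d, hDY hd⟩⁻¹)) = 1
      rw [map_mul, map_mul, map_mul, map_inv, map_inv, ← (hcomm ⟨d, hDY hd⟩ hd v hv).eq,
        mul_inv_cancel_right, inv_mul_cancel]
  obtain ⟨d1, hd1, hd1e⟩ := hd0.2
  set w := v * d1 with hw
  have hwC : (w : G) ∈ Subgroup.centralizer (D : Set G) :=
    Subgroup.mem_centralizer_iff.2 fun d hd => by
      simpa [hw, ← hd1e] using hfix d hd
  have hwK : (w : G) ∈ K := by
    rw [hw, Subgroup.coe_mul, show (d1 : G) = d0 from hd1e]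
    exact mul_mem hv hd0.1
  -- it lies in the core of the centralizer of the weak closure
  have hzC : Subgroup.centralizer (D : Set G) ≤ Subgroup.centralizer ({z} : Set G) :=
    Subgroup.centralizer_le (Set.singleton_subset_iff.2 hc.mem_wcl_self)
  set C := Subgroup.centralizer (D : Set G) with hC
  have hCY : C ≤ Y := Subgroup.centralizer_le (Set.singleton_subset_iff.2 hcD)
  have hC' : C ≠ ⊤ := fun e => hc.centralizer_ne_top (hc.ne_one (IsConj.refl z))
    (top_le_iff.1 (e ▸ hzC))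
  haveI := H19.pPrimeCore_normal p C
  set T := Cfsg.pPrimeCore p C with hT
  have hwT : (⟨(w : G), hwC⟩ : C) ∈ T := by
    obtain ⟨S, hS⟩ := exists_sylow_centralizer (P := P) (z := z)
    refine le_core_of_sylow_normalizes (hc.proper C hC') (U := K.subgroupOf C) ?_ S ?_
      (Subgroup.mem_subgroupOf.2 hwK)
    · refine fun h => hK (h.trans ?_)
      rw [← Subgroup.card_map_of_injective C.subtype_injective]
      exact Subgroup.card_dvd_of_le ((Subgroup.subgroupOf_map_subtype K C).le.trans inf_le_left)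
    · intro x hx
      rw [hS] at hx
      exact mem_normalizer_of_conj_mem fun y hy =>
        Subgroup.mem_subgroupOf.2 (conj_mem (hPK hx) hy)
  -- the core of the centralizer of the weak closure lies in the core
  set T' := ((T.map C.subtype).subgroupOf Y).map f with hT'
  have hT'p : ¬ p ∣ Nat.card T' := by
    refine not_dvd_card_map f fun h => ?_
    refine hp.out.coprime_iff_not_dvd.1 (H19.pPrimeCore_coprime p).symm (h.trans ?_ : p ∣ Nat.card T)
    rw [← Subgroup.card_map_of_injective Y.subtype_injective,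
      ← Subgroup.card_map_of_injective (K := T) C.subtype_injective]
    exact Subgroup.card_dvd_of_le
      ((Subgroup.subgroupOf_map_subtype _ Y).le.trans inf_le_left)
  obtain ⟨S, hS⟩ := ((P.isPGroup'.to_le hDP).comap_of_injective Y.subtype Y.subtype_injective
    : IsPGroup p (D.subgroupOf Y)).exists_le_sylow
  have lift : ∀ o ∈ O, ∃ s ∈ (S : Subgroup Y), f s = o := fun o ho =>
    Subgroup.mem_map.1 (H19.pCore_le_sylow (S.mapSurjective (QuotientGroup.mk'_surjective N)) ho)
  have hcen : ∀ o ∈ O, (∀ d : Y, (d : G) ∈ D → Commute o (f d)) →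
      ∀ y ∈ T', Commute y o := by
    intro o ho hod y hy
    obtain ⟨s, hs, rfl⟩ := lift o ho
    have hsC : (s : G) ∈ C := by
      refine Subgroup.mem_centralizer_iff.2 fun d hd => ?_
      have hdS : (⟨d, hDY hd⟩ : Y) ∈ (S : Subgroup Y) := hS hd
      have h1 : s * ⟨d, hDY hd⟩ * s⁻¹ * (⟨d, hDY hd⟩ : Y)⁻¹ = 1 := by
        refine eq_one_of_mem S.isPGroup' hNp
          (mul_mem (mul_mem (mul_mem hs hdS) (inv_mem hs)) (inv_mem hdS))
          ((QuotientGroup.eq_one_iff _).1 ?_)
        show f _ = 1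
        rw [map_mul, map_mul, map_mul, map_inv, map_inv, (hod ⟨d, hDY hd⟩ hd).eq,
          mul_inv_cancel_right, mul_inv_cancel]
      exact (congrArg Subtype.val (mul_inv_eq_iff_eq_mul.1 (mul_inv_eq_one.1 h1))).symm
    refine commute_of_normalizes hOp hT'p ho
      (map_mem_normalizer f (mem_normalizer_of_conj_mem fun x hx => ?_)) hy
    obtain ⟨x', hx', e⟩ := Subgroup.mem_map.1 (Subgroup.mem_subgroupOf.1 hx)
    refine Subgroup.mem_subgroupOf.2 (Subgroup.mem_map.2 ⟨⟨(s : G), hsC⟩ * x' * ⟨(s : G), hsC⟩⁻¹,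
      Subgroup.Normal.conj_mem inferInstance x' hx' _, ?_⟩)
    simp only [Subgroup.coe_subtype, Subgroup.coe_mul, Subgroup.coe_inv] at e ⊢
    rw [e]
  have hT'O : ∀ τ ∈ T', ∀ o ∈ O, Commute τ o := by
    intro τ hτ o ho
    set μ := o⁻¹ * τ * o * τ⁻¹ with hμ
    have hμO : μ ∈ O := by
      rw [hμ, show o⁻¹ * τ * o * τ⁻¹ = o⁻¹ * (τ * o * τ⁻¹) by group]
      exact mul_mem (inv_mem ho) (Subgroup.Normal.conj_mem inferInstance o ho τ)
    -- it centralizes every conjugate of `z` in the weak closure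
    have hgen : ∀ w : Y, IsConj z (w : G) → (w : G) ∈ (P : Subgroup G) → Commute μ (f w) := by
      intro w hw hwP
      have hwD : (w : G) ∈ D := mem_wcl hw hwP
      have hDc : ∀ d : Y, (d : G) ∈ D → Commute (f w) (f d) := fun d hd => by
        have h : Commute w d := Subtype.ext (hc.wcl_comm P.isPGroup' hwD hd).eq
        exact h.map f
      obtain ⟨s, hs, rfl⟩ := lift o ho
      have hu : s * w * s⁻¹ ∈ (S : Subgroup Y) :=
        mul_mem (mul_mem hs (hS hwD)) (inv_mem hs)
      have hud : ∀ d : Y, (d : G) ∈ D → Commute (f (s * w * s⁻¹)) (f d) := by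
        intro d hd
        have h1 : D ≤ Subgroup.centralizer ({((s * w * s⁻¹ : Y) : G)} : Set G) :=
          (Subgroup.closure_le _).2 fun x hx => Subgroup.mem_centralizer_singleton_iff.2
            (hc.commute_of_pGroup (S.isPGroup'.map Y.subtype) hx.1
              (hw.trans (isConj_iff.2 ⟨(s : G), by simp⟩))
              ⟨⟨x, hDY (mem_wcl hx.1 hx.2)⟩, hS (mem_wcl hx.1 hx.2), rfl⟩
              ⟨_, hu, rfl⟩).eq
        have h : Commute (s * w * s⁻¹) d :=
          Subtype.ext (Subgroup.mem_centralizer_singleton_iff.1 (h1 hd)).symm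
        exact h.map f
      have e1 : Commute τ (f w) := hcen _ (hDO w hwD) hDc τ hτ
      have hsO : f (s * w * s⁻¹) ∈ O := by
        rw [map_mul, map_mul, map_inv]
        exact Subgroup.Normal.conj_mem inferInstance _ (hDO w hwD) _
      have e2 : Commute τ (f (s * w * s⁻¹)) := hcen _ hsO hud τ hτ
      rw [map_mul, map_mul, map_inv] at e2
      show μ * f w = f w * μ
      calc μ * f w = (f s)⁻¹ * τ * f s * (τ⁻¹ * f w) := by rw [hμ]; group
        _ = (f s)⁻¹ * (τ * (f s * f w * (f s)⁻¹)) * f s * τ⁻¹ := by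
            rw [e1.inv_left.eq]; group
        _ = f w * μ := by rw [e2.eq, hμ]; group
    have hμD : ∀ d : Y, (d : G) ∈ D → Commute μ (f d) := by
      have h1 : D ≤ ((Subgroup.centralizer ({μ} : Set (Y ⧸ N))).comap f).map Y.subtype :=
        (Subgroup.closure_le _).2 fun x hx => ⟨⟨x, hDY (mem_wcl hx.1 hx.2)⟩,
          Subgroup.mem_comap.2 (Subgroup.mem_centralizer_singleton_iff.2
            (hgen ⟨x, hDY (mem_wcl hx.1 hx.2)⟩ hx.1 hx.2).eq.symm), rfl⟩
      intro d hd
      obtain ⟨d', hd', e⟩ := h1 hd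
      exact (Subgroup.mem_centralizer_singleton_iff.1 (Subtype.ext e ▸ hd' :
        d ∈ (Subgroup.centralizer ({μ} : Set (Y ⧸ N))).comap f)).symm
    have hμτ : Commute τ μ⁻¹ := (hcen μ hμO hμD τ hτ).inv_right
    have h := commute_of_translate (p := p) (o := o⁻¹) hμτ (by rw [hμ]; group) ?_ ?_
    · exact Commute.inv_right_iff.1 h
    · obtain ⟨k, hk⟩ := IsPGroup.iff_orderOf.1 hOp ⟨μ⁻¹, inv_mem hμO⟩
      exact ⟨k, by rwa [Subgroup.orderOf_mk] at hk⟩
    · exact fun hd => hT'p (hd.trans (by simpa using orderOf_dvd_natCard (⟨τ, hτ⟩ : T')))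
  have hwN : w ∈ N := by
    refine (QuotientGroup.eq_one_iff w).1 (eq_one_of_mem hOp hT'p
      (hcon (Subgroup.mem_centralizer_iff.2 fun o ho => ?_))
      (Subgroup.mem_map_of_mem f (Subgroup.mem_subgroupOf.2 ⟨⟨(w : G), hwC⟩, hwT, rfl⟩)))
    exact (hT'O _ (Subgroup.mem_map_of_mem f
      (Subgroup.mem_subgroupOf.2 ⟨⟨(w : G), hwC⟩, hwT, rfl⟩)) o ho).eq.symm
  rw [show v = w * d1⁻¹ by rw [hw, mul_inv_cancel_right]]
  exact mul_mem hwN (inv_mem hd1)

/-- Members of the principal block are constant on `K c`. -/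
theorem Conf.sect (hc : Conf p P z) {M : Ideal AlgInt} (hM : IsPModular p M) {χ : IrrCharacter G}
    (hχ : χ ∈ principalBlock M G) {c : G} (hcD : c ∈ wcl z (P : Subgroup G)) (hc1 : c ≠ 1)
    {K : Subgroup G} (hK : ¬ p ∣ Nat.card K)
    (hPK : (P : Subgroup G) ≤ Subgroup.normalizer (K : Set G)) {x : G} (hx : x ∈ K) :
    χ.1 (x * c) = χ.1 c := by
  obtain ⟨r, -, v, hv, hcv, e⟩ := exists_section P.isPGroup' hPK hK (wcl_le z _ hcD) hx
  rw [e, H26.irr_conj, ← hcv.eq]
  obtain ⟨j, hj⟩ := IsPGroup.iff_orderOf.1 P.isPGroup' ⟨c, wcl_le z _ hcD⟩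
  exact EC.principal_value hM hχ ⟨j, by rwa [Subgroup.orderOf_mk] at hj⟩
    (v := ⟨v, Subgroup.mem_centralizer_singleton_iff.2 hcv.eq.symm⟩)
    (hc.mem_core hcD hc1 hK hPK hv)

end Cfsg.Agent.H92.Pairs
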