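import Cfsg.Agent.H92.Pairs.Closure
import Cfsg.Agent.H43.CharKer
import Cfsg.Agent.H26.CharLinear
import Mathlib.GroupTheory.Transfer

/-!
# Elementary facts in a simple group with trivial centre
-/

set_option autoImplicit false
set_option linter.unusedSectionVars false

namespace Cfsg.Agent.H92.Pairs

open Cfsg

variable {G : Type*} [Group G] [Finite G] [IsSimpleGroup G] {p : ℕ} [hp : Fact p.Prime]
  {P : Sylow p G} {z : G}

/-- There are no non-trivial homomorphisms to a commutative monoid. -/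
theorem Conf.map_eq_one (hc : Conf p P z) {A : Type*} [CommGroup A] (f : G →* A) (g : G) :
    f g = 1 := by
  rcases Subgroup.Normal.eq_bot_or_eq_top (f.normal_ker) with h | h
  · exfalso
    refine hc.ne_one (IsConj.refl z) ?_
    have : z ∈ Subgroup.center G := Subgroup.mem_center_iff.2 fun x =>
      (MonoidHom.ker_eq_bot_iff f).1 h (by rw [map_mul, map_mul, mul_comm])
    rwa [hc.center, Subgroup.mem_bot] at this
  · exact MonoidHom.mem_ker.1 (h ▸ Subgroup.mem_top g)

/-- A character with `z` in its kernel is trivial. -/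
theorem Conf.eq_oneIrr (hc : Conf p P z) {χ : IrrCharacter G} (h : χ.1 z = χ.1 1) :
    χ = H26.oneIrr G := by
  classical
  haveI := Fintype.ofFinite G
  have htop : H43.charKer χ = ⊤ := by
    refine ((H43.charKer_normal χ).eq_bot_or_eq_top).resolve_left fun e => ?_
    refine hc.ne_one (IsConj.refl z) ?_
    have : z ∈ H43.charKer χ := H43.mem_charKer.2 h
    rwa [e, Subgroup.mem_bot] at this
  refine H43.eq_oneIrr_of_mult_ne_zero
    (fun g => (H43.mem_charKer (χ := χ) (g := g)).1 (by rw [htop]; trivial)) fun h0 => ?_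
  have h1 := H43.classInner_eq_mult (H26.irr_isCharacter χ) χ
  rw [h0, H26.classInner_irr, if_pos rfl, Nat.cast_zero] at h1
  exact one_ne_zero h1

/-- Only the trivial character is linear. -/
theorem Conf.eq_oneIrr_of_degree_one (hc : Conf p P z) {χ : IrrCharacter G} (h : χ.1 1 = 1) :
    χ = H26.oneIrr G := by
  obtain ⟨f, hf⟩ := H26.exists_hom_of_isCharacter_one (H26.irr_isCharacter χ) h
  exact hc.eq_oneIrr (by rw [← hf, ← hf, hc.map_eq_one f z, map_one])

/-- With `P` commutative every non-trivial element of `P` has another conjugate in `P`. -/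
theorem Conf.exists_other_conj (hc : Conf p P z)
    (hcomm : ∀ a ∈ (P : Subgroup G), ∀ b ∈ (P : Subgroup G), Commute a b) {u : G}
    (hu : u ∈ (P : Subgroup G)) (hu1 : u ≠ 1) :
    ∃ w ∈ (P : Subgroup G), IsConj u w ∧ w ≠ u := by
  by_contra! hcon
  haveI : IsMulCommutative (P : Subgroup G) :=
    ⟨⟨fun a b => Subtype.ext (hcomm _ a.2 _ b.2).eq⟩⟩
  open scoped IsMulCommutative in
  have hkey : ∀ (k : ℕ) (g : G), g⁻¹ * u ^ k * g ∈ (P : Subgroup G) → g⁻¹ * u ^ k * g = u ^ k := by
    intro k g hg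
    obtain ⟨n, hn, e⟩ := Sylow.conj_eq_normalizer_conj_of_mem P (u ^ k) g (pow_mem hu k) hg
    rw [e]
    have h1 : n⁻¹ * u * n ∈ (P : Subgroup G) := by
      simpa using (Subgroup.mem_normalizer_iff.1 (inv_mem hn) u).1 hu
    have h2 := hcon _ h1 (isConj_iff.2 ⟨n⁻¹, by simp⟩)
    have h3 := _root_.conj_pow (a := n⁻¹) (b := u) (i := k)
    rw [inv_inv, h2] at h3
    exact h3.symm
  have h1 := MonoidHom.transfer_eq_pow (MonoidHom.id (P : Subgroup G)) u hkey
  rw [hc.map_eq_one, MonoidHom.id_apply] at h1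
  have h2 : u ^ (P : Subgroup G).index = 1 := (congrArg Subtype.val h1).symm
  obtain ⟨j, hj⟩ := IsPGroup.iff_orderOf.1 P.isPGroup' ⟨u, hu⟩
  rw [Subgroup.orderOf_mk] at hj
  rcases Nat.eq_zero_or_pos j with rfl | hpos
  · exact hu1 (orderOf_eq_one_iff.1 (by simpa using hj))
  · exact P.not_dvd_index ((dvd_pow_self p hpos.ne').trans (hj ▸ orderOf_dvd_of_pow_eq_one h2))

end Cfsg.Agent.H92.Pairs
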