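import Cfsg.Agent.H92.Pairs.Count
import Cfsg.Agent.H92.Pairs.Simple
import Cfsg.Agent.H92.K34.Column
import Cfsg.Agent.H42.MaxIdeal
import Cfsg.Agent.S0215

/-!
# No simple group has the configuration
-/

set_option autoImplicit false
set_option linter.unusedSectionVars false

open scoped ComplexConjugate

namespace Cfsg.Agent.H92.Pairs

open Cfsg

variable {G : Type*} [Group G] {p : ℕ} [hp : Fact p.Prime]

theorem Conf.false [Finite G] [IsSimpleGroup G] {P : Sylow p G} {z : G} (hc : Conf p P z) :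
    False := by
  classical
  haveI := Fintype.ofFinite G
  obtain ⟨M, hM⟩ := H42.exists_isPModular hp.out
  obtain ⟨D, hD⟩ : ∃ D, D = wcl z (P : Subgroup G) := ⟨_, rfl⟩
  haveI : Fintype D := Fintype.ofFinite D
  have hDP : D ≤ (P : Subgroup G) := hD ▸ wcl_le z _
  have hzD : z ∈ D := hD ▸ hc.mem_wcl_self
  have hz1 : z ≠ 1 := hc.ne_one (IsConj.refl z)
  set zD : D := ⟨z, hzD⟩ with hzDdef
  set q := Fintype.card D with hq
  set E := (Finset.univ : Finset D).erase 1 with hE
  have hEcard : E.card = q - 1 := by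
    rw [hE, Finset.card_erase_of_mem (Finset.mem_univ _), Finset.card_univ]
  have hzE : zD ∈ E := Finset.mem_erase.2
    ⟨fun h => hz1 (congrArg Subtype.val h), Finset.mem_univ _⟩
  have hpq : p ∣ q := by
    have h := orderOf_dvd_card (x := zD)
    rwa [← Subgroup.orderOf_coe, hzDdef, show ((⟨z, hzD⟩ : D) : G) = z from rfl, hc.order] at h
  have hq2 : 2 ≤ q := hp.out.two_le.trans (Nat.le_of_dvd Fintype.card_pos hpq)
  have hpord : ∀ a : D, a ≠ 1 → p ∣ orderOf (a : G) := by
    intro a ha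
    obtain ⟨j, hj⟩ := IsPGroup.iff_orderOf.1 P.isPGroup' ⟨(a : G), hDP a.2⟩
    rw [Subgroup.orderOf_mk] at hj
    rw [hj]
    refine dvd_pow_self p ?_
    rintro rfl
    exact ha (Subtype.ext (orderOf_eq_one_iff.1 (by simpa using hj)))
  choose k hkreg hkn hkval hksum using fun g : G => hc.sum_pair hM g hD
  set d : IrrCharacter G → ℝ := fun χ => (Cfsg.charDegree χ.1 : ℝ) with hd
  set σ : IrrCharacter G → ℝ := fun χ => (∑ a : D, χ.1 a).re with hσ
  set τ : IrrCharacter G → ℝ := fun χ => σ χ - d χ with hτ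
  set L : G → IrrCharacter G → ℂ := fun g χ => ∑ a : D, χ.1 (k g * a * (k g)⁻¹ * (a : G)⁻¹) with hL
  have hdC : ∀ χ : IrrCharacter G, χ.1 1 = (d χ : ℂ) := fun χ => by
    rw [H43.irr_charDegree_spec]; simp [hd]
  have hdpos : ∀ χ, 0 < d χ := fun χ => Nat.cast_pos.2 (H43.irr_charDegree_pos χ)
  have hσC : ∀ χ : IrrCharacter G, ∑ a : D, χ.1 a = (σ χ : ℂ) := fun χ => by
    obtain ⟨m, hm⟩ := exists_sum_eq χ D
    simp only [hσ, hm, Complex.natCast_re, Complex.ofReal_natCast]
  have hτC : ∀ χ : IrrCharacter G, ∑ a ∈ E, χ.1 a = (τ χ : ℂ) := fun χ => by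
    rw [hE, Finset.sum_erase_eq_sub (Finset.mem_univ _), hσC, Subgroup.coe_one, hdC, hτ]
    push_cast; rfl
  set S := EC.B0 M G with hS
  have hmem : ∀ {χ}, χ ∈ S → χ ∈ principalBlock M G := fun h => EC.mem_B0.1 h
  -- the fundamental equation
  have hEq : ∀ χ ∈ S, (Nat.card G : ℂ) * ((σ χ : ℂ) * σ χ / d χ) =
      (Nat.card G : ℂ) * ((q : ℂ) * τ χ) + ∑ g : G, L g χ := by
    intro χ hχ
    have h : ∑ g : G, ∑ a : D, ∑ b : D, χ.1 (g * a * g⁻¹ * b) =
        (Nat.card G : ℂ) * ((σ χ : ℂ) * σ χ / d χ) := by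
      rw [Finset.sum_comm, Finset.sum_congr rfl fun a _ => Finset.sum_comm,
        Finset.sum_congr rfl fun (a : D) _ => Finset.sum_congr rfl fun (b : D) _ =>
          EC.sum_conj_mul χ (a : G) (b : G),
        ← hσC, Finset.sum_mul_sum, ← hdC, Finset.sum_div, Finset.mul_sum]
      refine Finset.sum_congr rfl fun a _ => ?_
      rw [Finset.sum_div, Finset.mul_sum]
      exact Finset.sum_congr rfl fun b _ => by ring
    rw [← h, Finset.sum_congr rfl fun g _ => hksum g χ (hmem hχ), Finset.sum_add_distrib,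
      Finset.sum_const, Finset.card_univ, nsmul_eq_mul, hσC, hdC, ← Nat.card_eq_fintype_card]
    simp only [hτ, hL]
    push_cast
    rfl
  have hG0 : (0 : ℝ) < Nat.card G := Nat.cast_pos.2 Nat.card_pos
  -- the bound
  have hbound : ∀ χ ∈ S.erase (H26.oneIrr G), τ χ ≤ d χ := by
    intro χ hχ
    obtain ⟨hne, hχS⟩ := Finset.mem_erase.1 hχ
    have hle : ∀ a ∈ (Finset.univ : Finset D), ‖χ.1 a‖ ≤ d χ := fun a _ => EC.norm_irr_le χ a
    have hσle : σ χ ≤ q * d χ := by
      calc σ χ ≤ ∑ a : D, ‖χ.1 a‖ := by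
            simp only [hσ, Complex.re_sum]
            exact Finset.sum_le_sum fun a _ => Complex.re_le_norm _
        _ ≤ ∑ a : D, d χ := Finset.sum_le_sum hle
        _ = _ := by rw [Finset.sum_const, Finset.card_univ, nsmul_eq_mul]
    have hσlt : σ χ < q * d χ := by
      refine lt_of_le_of_ne hσle fun e => hne (hc.eq_oneIrr ?_)
      have h := EC.eq_of_sum_eq_max Finset.univ (fun a : D => χ.1 a) (d χ) hle
        (by rw [hσC, Finset.card_univ, e]; push_cast; rfl) zD (Finset.mem_univ _)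
      rw [hdC]; exact h
    have h1 : ∀ g : G, 2 * σ χ - q * d χ ≤ (L g χ).re := fun g => by
      have h := sum_commutator_ge χ D (k g)
      rw [hdC, Complex.ofReal_re] at h
      exact h
    have h2 : (Nat.card G : ℝ) * (σ χ * σ χ / d χ) =
        (Nat.card G : ℝ) * (q * τ χ) + ∑ g : G, (L g χ).re := by
      have := congrArg Complex.re (hEq χ hχS)
      rw [Complex.add_re, Complex.re_sum] at this
      rw [← Complex.ofReal_natCast (Nat.card G), ← Complex.ofReal_natCast q] at this
      simp only [← Complex.ofReal_mul, ← Complex.ofReal_div, Complex.ofReal_re] at this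
      exact this
    have h3 : (Nat.card G : ℝ) * (2 * σ χ - q * d χ) ≤ ∑ g : G, (L g χ).re := by
      calc _ = ∑ g : G, (2 * σ χ - q * d χ) := by
            rw [Finset.sum_const, Finset.card_univ, nsmul_eq_mul, Nat.card_eq_fintype_card]
        _ ≤ _ := Finset.sum_le_sum fun g _ => h1 g
    have h4 : q * τ χ + (2 * σ χ - q * d χ) ≤ σ χ * σ χ / d χ :=
      le_of_mul_le_mul_left (by rw [mul_add]; linarith) hG0
    rw [le_div_iff₀ (hdpos χ)] at h4
    simp only [hτ] at h4 ⊢
    have h5 : 0 ≤ (σ χ - q * d χ) * (σ χ - 2 * d χ) := by linarith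
    by_contra! hlt
    linarith [mul_neg_of_neg_of_pos (sub_neg.2 hσlt) (by linarith : 0 < σ χ - 2 * d χ)]
  -- orthogonality
  have horth : ∀ u : G, ¬ p ∣ orderOf u → ∑ χ ∈ S, χ.1 u * (τ χ : ℂ) = 0 := by
    intro u hu
    calc ∑ χ ∈ S, χ.1 u * (τ χ : ℂ) = ∑ χ ∈ S, χ.1 u * conj (∑ a ∈ E, χ.1 a) :=
          Finset.sum_congr rfl fun χ _ => by rw [hτC, Complex.conj_ofReal]
      _ = ∑ a ∈ E, ∑ χ ∈ S, χ.1 u * conj (χ.1 a) := by
          simp only [map_sum, Finset.mul_sum]
          exact Finset.sum_comm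
      _ = 0 := Finset.sum_eq_zero fun a ha =>
          EC.sum_B0_regular hM hu (hpord a (Finset.mem_erase.1 ha).1)
  have hsum1 : ∑ χ ∈ S, d χ * τ χ = 0 := by
    refine Complex.ofReal_injective ?_
    rw [Complex.ofReal_sum, Complex.ofReal_zero, ← horth 1 (by simpa using hp.out.not_dvd_one)]
    exact Finset.sum_congr rfl fun χ _ => by rw [hdC]; push_cast; rfl
  have hcub : ∑ χ ∈ S, τ χ * τ χ * (τ χ / d χ - ((q : ℝ) - 2)) = 0 := by
    have h1 : ∑ χ ∈ S, (τ χ : ℂ) * ((Nat.card G : ℂ) * ((σ χ : ℂ) * σ χ / d χ - (q : ℂ) * τ χ)) = 0 := by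
      rw [Finset.sum_congr rfl fun χ hχ => by
        rw [mul_sub (Nat.card G : ℂ), hEq χ hχ, add_sub_cancel_left, Finset.mul_sum]]
      rw [Finset.sum_comm]
      refine Finset.sum_eq_zero fun g _ => ?_
      simp only [hL, Finset.mul_sum]
      rw [Finset.sum_comm]
      exact Finset.sum_eq_zero fun a _ =>
        (Finset.sum_congr rfl fun χ _ => mul_comm _ _).trans (horth _ (hkreg g a))
    have h2 : (Nat.card G : ℝ) * ∑ χ ∈ S, τ χ * (σ χ * σ χ / d χ - q * τ χ) = 0 := by
      refine Complex.ofReal_injective ?_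
      rw [Finset.mul_sum, Complex.ofReal_sum, Complex.ofReal_zero, ← h1]
      exact Finset.sum_congr rfl fun χ _ => by push_cast; ring
    have h3 := (mul_eq_zero.1 h2).resolve_left hG0.ne'
    have h5 : ∑ χ ∈ S, (τ χ * (σ χ * σ χ / d χ - q * τ χ) - d χ * τ χ) = 0 := by
      rw [Finset.sum_sub_distrib, h3, hsum1, sub_zero]
    refine Eq.trans ?_ h5
    refine Finset.sum_congr rfl fun χ _ => ?_
    have := (hdpos χ).ne'
    simp only [hτ]
    field_simp
    ring
  have hone : d (H26.oneIrr G) = 1 ∧ τ (H26.oneIrr G) = (q : ℝ) - 1 := by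
    have h1 : d (H26.oneIrr G) = 1 := by
      have := hdC (H26.oneIrr G)
      rw [H26.oneIrr_val] at this
      exact_mod_cast this.symm
    refine ⟨h1, ?_⟩
    simp only [hτ, h1, hσ, H26.oneIrr_val]
    simp [hq]
  set S' := S.erase (H26.oneIrr G) with hS'
  have hsplit : ∀ f : IrrCharacter G → ℝ, ∑ χ ∈ S, f χ = f (H26.oneIrr G) + ∑ χ ∈ S', f χ :=
    fun f => (Finset.add_sum_erase _ _ (EC.one_mem_B0 hM)).symm
  have hsum' : ∑ χ ∈ S', d χ * τ χ = -((q : ℝ) - 1) := by
    rw [hsplit, hone.1, hone.2] at hsum1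
    linarith
  have hcub' : ∑ χ ∈ S', τ χ * τ χ * ((q : ℝ) - 2 - τ χ / d χ) = ((q : ℝ) - 1) * ((q : ℝ) - 1) := by
    rw [hsplit, hone.1, hone.2] at hcub
    have e : ∑ χ ∈ S', τ χ * τ χ * ((q : ℝ) - 2 - τ χ / d χ) =
        - ∑ χ ∈ S', τ χ * τ χ * (τ χ / d χ - ((q : ℝ) - 2)) := by
      rw [← Finset.sum_neg_distrib]
      exact Finset.sum_congr rfl fun χ _ => by ring
    rw [e]
    linear_combination -hcub
  have hsq : ((q : ℝ) - 1) * (2 * q) ≤
      ((q : ℝ) - 1) * ((q : ℝ) - 1) + ∑ χ ∈ S', τ χ * τ χ := by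
    have h := hc.sum_sq_ge hM (fun hcomm u hu hu1 => hc.exists_other_conj hcomm hu hu1) hD
    rw [← hE, Finset.sum_congr rfl fun χ _ => by rw [hτC, Complex.normSq_ofReal], hsplit,
      hone.2] at h
    exact h
  have hratio : ∀ χ ∈ S', τ χ / d χ ≤ 1 := fun χ hχ =>
    (div_le_one (hdpos χ)).2 (hbound χ hχ)
  have hq3 : q ≤ 3 := by
    by_contra! hq4
    have h4 : (4 : ℝ) ≤ q := by exact_mod_cast hq4
    have h1 : ((q : ℝ) - 3) * ∑ χ ∈ S', τ χ * τ χ ≤ ((q : ℝ) - 1) * ((q : ℝ) - 1) := by
      rw [← hcub', Finset.mul_sum]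
      refine Finset.sum_le_sum fun χ hχ => ?_
      rw [mul_comm]
      exact mul_le_mul_of_nonneg_left (by linarith [hratio χ hχ]) (mul_self_nonneg _)
    nlinarith [mul_le_mul_of_nonneg_left hsq (by linarith : (0 : ℝ) ≤ (q : ℝ) - 3)]
  have hpq' : p = q := by
    rcases Nat.lt_or_ge q 3 with h | h
    · exact ((Nat.prime_dvd_prime_iff_eq hp.out Nat.prime_two).1
        ((by omega : q = 2) ▸ hpq)).trans (by omega)
    · exact ((Nat.prime_dvd_prime_iff_eq hp.out Nat.prime_three).1
        ((by omega : q = 3) ▸ hpq)).trans (by omega)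
  rcases (by omega : q = 2 ∨ q = 3) with hq2' | hq3'
  · -- an isolated involution
    have hp2 : p = 2 := hpq'.trans hq2'
    subst hp2
    have hall : ∀ a ∈ E, a = zD := fun a ha =>
      Finset.card_le_one.1 (by rw [hEcard, hq2']) a ha zD hzE
    obtain ⟨N, hN, hodd, hNz⟩ := S0215.result P z hc.order hc.mem fun g hg => by
      have hconj : IsConj z (g * z * g⁻¹) := isConj_iff.2 ⟨g, rfl⟩
      exact congrArg Subtype.val (hall ⟨_, hD ▸ mem_wcl hconj hg⟩ (Finset.mem_erase.2
        ⟨fun h => hc.ne_one hconj (congrArg Subtype.val h), Finset.mem_univ _⟩))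
    rcases hN.eq_bot_or_eq_top with hb | ht
    · refine hz1 ?_
      have : z ∈ Subgroup.center G := Subgroup.mem_center_iff.2 fun g => by
        have h := hNz g
        rw [hb, Subgroup.mem_bot, mul_inv_eq_one, mul_inv_eq_iff_eq_mul] at h
        exact h.symm
      rwa [hc.center, Subgroup.mem_bot] at this
    · rw [ht, Subgroup.card_top] at hodd
      have h := hc.order ▸ orderOf_dvd_natCard z
      exact (Nat.not_even_iff_odd.2 hodd) (even_iff_two_dvd.2 h)
  · -- three elements
    have hp3 : p = 3 := hpq'.trans hq3'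
    have hzi : zD⁻¹ ≠ zD := fun h => by
      have h2 : orderOf z ∣ 2 := orderOf_dvd_of_pow_eq_one (by
        have := congrArg Subtype.val (inv_eq_iff_mul_eq_one.1 h)
        simpa [hzDdef, pow_two] using this)
      rw [hc.order, hp3] at h2
      exact absurd h2 (by norm_num)
    have hEeq : E = {zD, zD⁻¹} := by
      refine (Finset.eq_of_subset_of_card_le (Finset.insert_subset_iff.2 ⟨hzE,
        Finset.singleton_subset_iff.2 (Finset.mem_erase.2 ⟨?_, Finset.mem_univ _⟩)⟩) ?_).symm
      · exact inv_ne_one.2 (Finset.mem_erase.1 hzE).1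
      · rw [hEcard, hq3', Finset.card_pair hzi.symm]
    have hτz : ∀ χ : IrrCharacter G, τ χ = 2 * (χ.1 z).re := fun χ => by
      have h := congrArg Complex.re (hτC χ)
      rw [hEeq, Finset.sum_pair hzi.symm, Complex.ofReal_re, Subgroup.coe_inv, hzDdef,
        Complex.add_re, H26.irr_inv, Complex.conj_re] at h
      rw [← h]; ring
    have hq3R : (q : ℝ) = 3 := by exact_mod_cast hq3'
    have hnn : ∀ χ ∈ S', 0 ≤ τ χ * τ χ * ((q : ℝ) - 2 - τ χ / d χ) := fun χ hχ =>
      mul_nonneg (mul_self_nonneg _) (by linarith [hratio χ hχ, hq3R])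
    obtain ⟨χ, hχ, hneg⟩ : ∃ χ ∈ S', τ χ < 0 := by
      by_contra! h
      have := Finset.sum_nonneg fun χ hχ => mul_nonneg (hdpos χ).le (h χ hχ)
      linarith [hsum']
    have hle := Finset.single_le_sum hnn hχ
    rw [hcub', hq3R] at hle
    obtain ⟨hne, hχS⟩ := Finset.mem_erase.1 hχ
    have hz3 : z ^ 3 = 1 := by rw [← hp3, ← hc.order, pow_orderOf_eq_one]
    have hz2 : z * z = z⁻¹ := eq_inv_of_mul_eq_one_left (by
      rw [mul_assoc, ← pow_two, ← pow_succ', hz3])
    by_cases hinv : IsConj z z⁻¹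
    · obtain ⟨a, ha⟩ := K34.exists_int_value χ (x := z) fun j hj => by
        rw [hc.order, hp3] at hj
        have : j % 3 = 1 ∨ j % 3 = 2 := by
          rcases (by omega : j % 3 = 0 ∨ j % 3 = 1 ∨ j % 3 = 2) with h | h | h
          · exact absurd ((Nat.prime_three.coprime_iff_not_dvd.1 hj.symm)
              (Nat.dvd_of_mod_eq_zero h)) not_false
          · exact Or.inl h
          · exact Or.inr h
        rw [← pow_mod_orderOf z j, hc.order, hp3]
        rcases this with h | h
        · rw [h, pow_one]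
        · rw [h, pow_two, hz2]; exact hinv
      have hτa : τ χ = 2 * (a : ℝ) := by rw [hτz, ha, Complex.intCast_re]
      have ha1 : (a : ℝ) ≤ -1 := by
        have : (a : ℝ) < 0 := by linarith
        have : a < 0 := by exact_mod_cast this
        exact_mod_cast (by omega : a ≤ -1)
      have h4 : 4 ≤ τ χ * τ χ := by nlinarith
      have hpos : 0 < -(τ χ / d χ) := by
        rw [← neg_div]; exact div_pos (by linarith) (hdpos χ)
      nlinarith [mul_le_mul_of_nonneg_right h4 hpos.le]
    · have hconst : ∀ g : G, χ.1 (g * z * g⁻¹ * z) = conj (χ.1 z) := by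
        intro g
        obtain ⟨n, hn, e⟩ := hkn g
        set w : D := ⟨n * z * n⁻¹, conj_mem hn hzD⟩ with hw
        have hwconj : IsConj z (w : G) := isConj_iff.2 ⟨n, rfl⟩
        have hwE : w ∈ E := Finset.mem_erase.2
          ⟨fun h => hc.ne_one hwconj (congrArg Subtype.val h), Finset.mem_univ _⟩
        rw [hEeq, Finset.mem_insert, Finset.mem_singleton] at hwE
        rcases hwE with h | h
        · have hfix : n * z * n⁻¹ = z := congrArg Subtype.val h
          calc χ.1 (g * z * g⁻¹ * z) = χ.1 (k g * (n * z * n⁻¹) * (k g)⁻¹ * z) := by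
                conv_lhs => rw [e]
                congr 1; group
            _ = χ.1 (k g * z * (k g)⁻¹ * z) := by rw [hfix]
            _ = χ.1 (z * z) := by
                refine (hkval g χ (hmem hχS) zD zD fun h1 => hz1 ?_).trans rfl
                have h2 : z * z = 1 := congrArg Subtype.val h1
                rw [hz2, inv_eq_one] at h2
                exact h2
            _ = _ := by rw [hz2, H26.irr_inv]
        · exfalso
          refine hinv ?_
          have : (w : G) = z⁻¹ := by rw [h, Subgroup.coe_inv]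
          rwa [this] at hwconj
      have hsq' : χ.1 z * χ.1 z = (d χ : ℂ) * conj (χ.1 z) := by
        have h := EC.sum_conj_mul χ z z
        rw [Finset.sum_congr rfl fun g _ => hconst g, Finset.sum_const, Finset.card_univ,
          nsmul_eq_mul, ← Nat.card_eq_fintype_card, hdC, mul_div_assoc, mul_assoc] at h
        have h' := mul_left_cancel₀ (Nat.cast_ne_zero.2 (Nat.card_pos (α := G)).ne') h
        rw [h', div_mul_eq_mul_div, mul_div_cancel₀ _ (Complex.ofReal_ne_zero.2 (hdpos χ).ne')]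
      set x := (χ.1 z).re with hx
      set y := (χ.1 z).im with hy
      have h1 := congrArg Complex.re hsq'
      have h2 := congrArg Complex.im hsq'
      simp only [Complex.mul_re, Complex.mul_im, Complex.ofReal_re, Complex.ofReal_im,
        Complex.conj_re, Complex.conj_im, ← hx, ← hy, zero_mul, sub_zero, add_zero] at h1 h2
      have hx0 : x < 0 := by linarith [hτz χ]
      have hy0 : y ≠ 0 := by
        intro h0
        rw [h0, mul_zero, sub_zero] at h1
        nlinarith [mul_neg_of_neg_of_pos hx0 (hdpos χ)]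
      have hx2 : 2 * x = -d χ := mul_right_cancel₀ hy0 (by linear_combination h2)
      have hτd : τ χ = -d χ := by rw [hτz, hx2]
      rw [hτd, neg_div, div_self (hdpos χ).ne'] at hle
      have hd1 : Cfsg.charDegree χ.1 = 1 := by
        have h3 : d χ * d χ ≤ 2 := by linarith
        have h4 : Cfsg.charDegree χ.1 * Cfsg.charDegree χ.1 ≤ 2 := by
          simp only [hd] at h3
          exact_mod_cast h3
        have h5 := H43.irr_charDegree_pos χ
        nlinarith
      exact hne (hc.eq_oneIrr_of_degree_one (by rw [H43.irr_charDegree_spec, hd1, Nat.cast_one]))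

end Cfsg.Agent.H92.Pairs
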