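import Cfsg.Agent.H92.Pairs.Closure

/-!
# Conjugates of a central element in a proper subgroup
-/

set_option autoImplicit false
set_option linter.unusedSectionVars false

namespace Cfsg.Agent.H92.Pairs

variable {G : Type*} [Group G] [Finite G] {p : ℕ} [hp : Fact p.Prime]

/-- Commuting elements with trivial `p`-th power generate a `p`-group. -/
theorem isPGroup_closure {H : Type*} [Group H] {k : Set H}
    (comm : ∀ x ∈ k, ∀ y ∈ k, Commute x y) (hk : ∀ x ∈ k, x ^ p = 1) :
    IsPGroup p (Subgroup.closure k) := by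
  have h1 : ∀ y ∈ k, Subgroup.closure k ≤ Subgroup.centralizer ({y} : Set H) := fun y hy =>
    (Subgroup.closure_le _).2 fun x hx => Subgroup.mem_centralizer_singleton_iff.2
      (comm x hx y hy).eq
  have h2 : ∀ x ∈ Subgroup.closure k, ∀ y ∈ Subgroup.closure k, Commute x y := fun x hx y hy =>
    (Subgroup.mem_centralizer_singleton_iff.1 (((Subgroup.closure_le _).2 fun w hw =>
      Subgroup.mem_centralizer_singleton_iff.2
        (Subgroup.mem_centralizer_singleton_iff.1 (h1 w hw hx)).symm :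
      Subgroup.closure k ≤ Subgroup.centralizer ({x} : Set H)) hy)).symm
  have h3 : ∀ x ∈ Subgroup.closure k, x ^ p = 1 := by
    intro x hx
    induction hx using Subgroup.closure_induction with
    | mem x hx => exact hk x hx
    | one => exact one_pow _
    | mul x y hx hy ihx ihy => rw [(h2 x hx y hy).mul_pow, ihx, ihy, mul_one]
    | inv x hx ih => rw [inv_pow, ih, inv_one]
  exact fun x => ⟨1, Subtype.ext (by simpa using h3 x x.2)⟩

theorem mem_normalizer_of_conj_mem {D : Subgroup G} {n : G} (h : ∀ d ∈ D, n * d * n⁻¹ ∈ D) :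
    n ∈ Subgroup.normalizer (D : Set G) := by
  have heq : D.map (MulAut.conj n).toMonoidHom = D := by
    refine Subgroup.eq_of_le_of_card_ge ?_
      (Subgroup.card_map_of_injective (MulAut.conj n).injective).ge
    rintro x ⟨d, hd, rfl⟩
    exact h d hd
  refine Subgroup.mem_normalizer_iff.2 fun x => ⟨h x, fun hx => ?_⟩
  rw [← heq] at hx
  obtain ⟨y, hy, e⟩ := hx
  rwa [← mul_left_cancel (mul_right_cancel e)]

variable {P : Sylow p G} {z : G}

/-- A conjugate of `z` in a proper subgroup lies in `O_{p',p}` of it. -/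
theorem Conf.conj_mem_opp (hc : Conf p P z) {X : Subgroup G} (hX : X ≠ ⊤) {v : X}
    (hv : IsConj z (v : G)) : v ∈ opp p X := by
  haveI := H19.pPrimeCore_normal p X
  set N := Cfsg.pPrimeCore p X with hN
  set f := QuotientGroup.mk' N with hf
  haveI := H19.pCore_normal p (X ⧸ N)
  set O := Cfsg.pCore p (X ⧸ N) with hO
  have hcon : Subgroup.centralizer (O : Set (X ⧸ N)) ≤ O := constrained_quotient (hc.proper X hX)
  have hOp : IsPGroup p O := H19.pCore_isPGroup p
  have hNp : ¬ p ∣ Nat.card N := hp.out.coprime_iff_not_dvd.1 (H19.pPrimeCore_coprime p).symm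
  have hvp : v ^ p = 1 := Subtype.ext (by simpa using hc.conj_pow hv)
  obtain ⟨S, hS⟩ := (IsPGroup.of_card (n := 1) (by
    rw [Nat.card_zpowers, pow_one, ← Subgroup.orderOf_coe, orderOf_conjugate hv, hc.order]) :
    IsPGroup p (Subgroup.zpowers v)).exists_le_sylow
  have hvS : v ∈ (S : Subgroup X) := hS (Subgroup.mem_zpowers v)
  have hSG : IsPGroup p ((S : Subgroup X).map X.subtype) := S.isPGroup'.map _
  have lift : ∀ o ∈ O, ∃ s ∈ (S : Subgroup X), f s = o := fun o ho =>
    Subgroup.mem_map.1 (H19.pCore_le_sylow (S.mapSurjective (QuotientGroup.mk'_surjective N)) ho)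
  -- conjugates by `O` of the image commute with it
  have hL : ∀ o ∈ O, Commute (f v) (o * f v * o⁻¹ * (f v)⁻¹) := by
    intro o ho
    obtain ⟨s, hs, rfl⟩ := lift o ho
    have h : Commute v (s * v * s⁻¹) := Subtype.ext (hc.commute_of_pGroup hSG hv
      (hv.trans (isConj_iff.2 ⟨(s : G), by simp⟩)) (Subgroup.mem_map_of_mem X.subtype hvS)
      (Subgroup.mem_map_of_mem X.subtype (mul_mem (mul_mem hs hvS) (inv_mem hs)))).eq
    have h' := (h.mul_right (Commute.refl v).inv_right).map f
    simpa only [map_mul, map_inv] using h'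
  have key : ∀ h : X, Commute (f v) (f (h * v * h⁻¹)) := by
    intro h
    set w := h * v * h⁻¹ with hw
    set R := (S : Subgroup X).map X.subtype ⊓ Subgroup.centralizer ({(v : G)} : Set G)
    obtain ⟨a, ha, hRa⟩ := hc.exists_central_sylow hv (R := R) (hSG.to_le inf_le_left)
      fun x hx => (Subgroup.mem_centralizer_singleton_iff.1 hx.2).symm
    obtain ⟨Y, hY, hcY, haY⟩ := hc.pair_kernel a ((h : G) * a)
    have hwG : (h : G) * a * z * ((h : G) * a)⁻¹ = (w : G) := by
      rw [hw]
      simp only [Subgroup.coe_mul, Subgroup.coe_inv, ← ha]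
      group
    rw [ha, hwG] at hcY
    set Y' := (Y.subgroupOf X).map f
    have hY' : ¬ p ∣ Nat.card Y' := by
      refine not_dvd_card_map f fun hd => hY (hd.trans ?_)
      rw [← Subgroup.card_map_of_injective X.subtype_injective]
      exact Subgroup.card_dvd_of_le ((Subgroup.subgroupOf_map_subtype Y X).le.trans inf_le_left)
    set c := f (v * w * v⁻¹ * w⁻¹) with hcdef
    have hcY' : c ∈ Y' := Subgroup.mem_map_of_mem f (Subgroup.mem_subgroupOf.2 (by simpa using hcY))
    -- the elements of `O` centralizing the image of `v` centralize `Y'`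
    have hnorm : ∀ s : X, (s : G) ∈ R → f s ∈ Subgroup.normalizer (Y' : Set (X ⧸ N)) := by
      intro s hs
      refine map_mem_normalizer f (mem_normalizer_of_conj_mem fun y hy => ?_)
      exact Subgroup.mem_subgroupOf.2 (by
        simpa using conj_mem (haY (hRa hs)) (Subgroup.mem_subgroupOf.1 hy))
    have hcen : ∀ o ∈ O, Commute (f v) o → ∀ y ∈ Y', Commute y o := by
      intro o ho hvo y hy
      obtain ⟨s, hs, rfl⟩ := lift o ho
      have h1 : s * v * s⁻¹ * v⁻¹ = 1 := by
        refine eq_one_of_mem S.isPGroup' hNp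
          (mul_mem (mul_mem (mul_mem hs hvS) (inv_mem hs)) (inv_mem hvS))
          ((QuotientGroup.eq_one_iff _).1 ?_)
        show f (s * v * s⁻¹ * v⁻¹) = 1
        rw [map_mul, map_mul, map_mul, map_inv, map_inv, ← hvo.eq, mul_inv_cancel_right,
          mul_inv_cancel]
      exact commute_of_normalizes hOp hY' ho (hnorm s ⟨Subgroup.mem_map_of_mem X.subtype hs,
        Subgroup.mem_centralizer_singleton_iff.2
          (congrArg Subtype.val (mul_inv_eq_iff_eq_mul.1 (mul_inv_eq_one.1 h1)))⟩) hy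
    have hvN : f v ∈ Subgroup.normalizer (Y' : Set (X ⧸ N)) :=
      hnorm v ⟨Subgroup.mem_map_of_mem X.subtype hvS, Subgroup.mem_centralizer_singleton_iff.2 rfl⟩
    set t := c * f v * c⁻¹ * (f v)⁻¹ with ht
    have htY : t ∈ Y' := by
      rw [ht, show c * f v * c⁻¹ * (f v)⁻¹ = c * (f v * c⁻¹ * (f v)⁻¹) by group]
      exact mul_mem hcY' (conj_mem hvN (inv_mem hcY'))
    have htreg : ¬ p ∣ orderOf t := fun hd => hY' (hd.trans (by
      simpa using orderOf_dvd_natCard (⟨t, htY⟩ : Y')))
    -- the translation parts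
    have hl : ∀ o ∈ O, f v * o * (f v)⁻¹ * o⁻¹ ∈ O ∧ Commute (f v) (f v * o * (f v)⁻¹ * o⁻¹) := by
      intro o ho
      refine ⟨mul_mem (Subgroup.Normal.conj_mem inferInstance o ho _) (inv_mem ho), ?_⟩
      have h1 := (hL o ho).inv_right
      rw [show (o * f v * o⁻¹ * (f v)⁻¹)⁻¹ = f v * o * (f v)⁻¹ * o⁻¹ by group] at h1
      exact h1
    have htO : ∀ o ∈ O, Commute t o := by
      intro o ho
      set o1 := (f v)⁻¹ * o * f v with ho1
      have ho1O : o1 ∈ O := by simpa using Subgroup.Normal.conj_mem inferInstance o ho (f v)⁻¹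
      set o2 := c⁻¹ * o1 * c with ho2
      have ho2O : o2 ∈ O := by simpa using Subgroup.Normal.conj_mem inferInstance o1 ho1O c⁻¹
      set l1 := f v * o1 * (f v)⁻¹ * o1⁻¹ with hl1
      set l2 := f v * o2 * (f v)⁻¹ * o2⁻¹ with hl2
      have hlO : l2 * l1⁻¹ ∈ O := mul_mem (hl o2 ho2O).1 (inv_mem (hl o1 ho1O).1)
      have hlv : Commute (f v) (l2 * l1⁻¹) :=
        (hl o2 ho2O).2.mul_right (hl o1 ho1O).2.inv_right
      refine commute_of_translate (hcen _ hlO hlv t htY) ?_ ?_ htreg
      · have e2 : Commute c l2 := hcen _ (hl o2 ho2O).1 (hl o2 ho2O).2 c hcY'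
        calc t * o * t⁻¹ = c * (l2 * o2) * c⁻¹ := by rw [ht, hl2, ho2, ho1]; group
          _ = (c * l2) * o2 * c⁻¹ := by group
          _ = (l2 * c) * o2 * c⁻¹ := by rw [e2.eq]
          _ = l2 * l1⁻¹ * o := by rw [hl1, ho2, ho1]; group
      · obtain ⟨k, hk⟩ := IsPGroup.iff_orderOf.1 hOp ⟨_, hlO⟩
        exact ⟨k, by rwa [Subgroup.orderOf_mk] at hk⟩
    have ht1 : t = 1 := eq_one_of_mem hOp hY'
      (hcon (Subgroup.mem_centralizer_iff.2 fun o ho => (htO o ho).eq.symm)) htY
    have hcv : Commute c (f v) := mul_inv_eq_iff_eq_mul.1 (mul_inv_eq_one.1 (ht ▸ ht1))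
    have hstep : f v * f w * (f v)⁻¹ = c * f w := by
      rw [hcdef, ← map_inv, ← map_mul, ← map_mul, ← map_mul]
      congr 1
      group
    have hpow : ∀ n : ℕ, (f v) ^ n * f w * ((f v) ^ n)⁻¹ = c ^ n * f w := by
      intro n
      induction n with
      | zero => simp
      | succ n ih =>
        calc (f v) ^ (n + 1) * f w * ((f v) ^ (n + 1))⁻¹
            = f v * ((f v) ^ n * f w * ((f v) ^ n)⁻¹) * (f v)⁻¹ := by
              rw [pow_succ', mul_inv_rev]; group
          _ = (f v * c ^ n) * f w * (f v)⁻¹ := by rw [ih]; group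
          _ = c ^ n * (f v * f w * (f v)⁻¹) := by rw [(hcv.pow_left n).symm.eq]; group
          _ = c ^ (n + 1) * f w := by rw [hstep, pow_succ]; group
    have hcp : c ^ p = 1 := by
      have h1 := hpow p
      rw [← map_pow, hvp, map_one, one_mul, inv_one, mul_one] at h1
      exact mul_eq_right.1 h1.symm
    have hc1 : c = 1 := by
      rcases (Nat.dvd_prime hp.out).1 (orderOf_dvd_of_pow_eq_one hcp) with h1 | h1
      · exact orderOf_eq_one_iff.1 h1
      · refine absurd ?_ hY'
        have h2 := orderOf_dvd_natCard (⟨c, hcY'⟩ : Y')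
        rwa [Subgroup.orderOf_mk, h1] at h2
    rw [hc1, one_mul] at hstep
    exact mul_inv_eq_iff_eq_mul.1 hstep
  -- the normal closure is an abelian `p`-group
  have hcl : IsPGroup p (Subgroup.normalClosure {f v}) := by
    refine isPGroup_closure (fun x hx y hy => ?_) fun x hx => ?_
    · obtain ⟨_, rfl, hx'⟩ := Group.mem_conjugatesOfSet_iff.1 hx
      obtain ⟨_, rfl, hy'⟩ := Group.mem_conjugatesOfSet_iff.1 hy
      obtain ⟨a', rfl⟩ := isConj_iff.1 hx'
      obtain ⟨b', rfl⟩ := isConj_iff.1 hy'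
      obtain ⟨a, rfl⟩ := QuotientGroup.mk'_surjective N a'
      obtain ⟨b, rfl⟩ := QuotientGroup.mk'_surjective N b'
      have h1 := (Commute.conj_iff (f a)).2 (key (a⁻¹ * b))
      convert h1 using 1
      simp only [map_mul, map_inv, hf]
      group
    · obtain ⟨_, rfl, hx'⟩ := Group.mem_conjugatesOfSet_iff.1 hx
      obtain ⟨a', rfl⟩ := isConj_iff.1 hx'
      rw [_root_.conj_pow, ← map_pow, hvp, map_one, mul_one, mul_inv_cancel]
  rw [mem_opp]
  exact H19.le_pCore Subgroup.normalClosure_normal hcl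
    (Subgroup.subset_normalClosure rfl)

theorem mem_normalizer_wcl {n : G} (h : ∀ v, IsConj z v → v ∈ (P : Subgroup G) →
    n * v * n⁻¹ ∈ (P : Subgroup G)) :
    n ∈ Subgroup.normalizer ((wcl z (P : Subgroup G) : Subgroup G) : Set G) := by
  refine mem_normalizer_of_conj_mem fun d hd => ?_
  have : wcl z (P : Subgroup G) ≤ (wcl z (P : Subgroup G)).comap (MulAut.conj n).toMonoidHom :=
    (Subgroup.closure_le _).2 fun v hv =>
      mem_wcl (hv.1.trans (isConj_iff.2 ⟨n, rfl⟩)) (h v hv.1 hv.2)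
  exact this hd

theorem sylow_le_normalizer_wcl :
    (P : Subgroup G) ≤ Subgroup.normalizer ((wcl z (P : Subgroup G) : Subgroup G) : Set G) :=
  fun _ hx => mem_normalizer_wcl fun _ _ hv => mul_mem (mul_mem hx hv) (inv_mem hx)

/-- Every element is the product of an element of a `p'`-subgroup normalized by `P` and an element
normalizing the weak closure. -/
theorem Conf.exists_kernel (hc : Conf p P z) (g : G) :
    ∃ K : Subgroup G, ¬ p ∣ Nat.card K ∧ (P : Subgroup G) ≤ Subgroup.normalizer (K : Set G) ∧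
      ∃ k ∈ K, k⁻¹ * g ∈
        Subgroup.normalizer ((wcl z (P : Subgroup G) : Subgroup G) : Set G) := by
  set X := (P : Subgroup G) ⊔ ((g • P : Sylow p G) : Subgroup G) with hXdef
  have hX : X ≠ ⊤ := hc.pairs _ _
  have hPX : (P : Subgroup G) ≤ X := le_sup_left
  have hgX : ((g • P : Sylow p G) : Subgroup G) ≤ X := le_sup_right
  haveI := H19.pPrimeCore_normal p X
  set K := (Cfsg.pPrimeCore p X).map X.subtype with hKdef
  have hK : ¬ p ∣ Nat.card K := by
    rw [hKdef, Subgroup.card_map_of_injective X.subtype_injective]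
    exact hp.out.coprime_iff_not_dvd.1 (H19.pPrimeCore_coprime p).symm
  have hXK : X ≤ Subgroup.normalizer (K : Set G) := fun x hx =>
    Subgroup.le_normalizer_map X.subtype ⟨⟨x, hx⟩, by rw [Subgroup.normalizer_eq_top]; trivial, rfl⟩
  set D := wcl z (P : Subgroup G)
  have hgD : D.map (MulAut.conj g).toMonoidHom ≤ (P : Subgroup G) ⊔ K := by
    rw [Subgroup.map_le_iff_le_comap]
    refine (Subgroup.closure_le _).2 fun v hv => ?_
    show g * v * g⁻¹ ∈ (P : Subgroup G) ⊔ K
    have hw : g * v * g⁻¹ ∈ X := hgX ((mem_smul_iff g).2 (by simpa [mul_assoc] using hv.2))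
    have h1 := mem_opp.1 (hc.conj_mem_opp hX (v := ⟨_, hw⟩) (hv.1.trans (isConj_iff.2 ⟨g, rfl⟩)))
    obtain ⟨s, hs, e⟩ := Subgroup.mem_map.1
      (H19.pCore_le_sylow ((P.subtype hPX).mapSurjective (QuotientGroup.mk'_surjective _)) h1)
    have h2 : s⁻¹ * ⟨g * v * g⁻¹, hw⟩ ∈ Cfsg.pPrimeCore p X := QuotientGroup.eq.1 e
    have h3 := mul_mem (Subgroup.mem_sup_left (T := K) (Subgroup.mem_subgroupOf.1 hs))
      (Subgroup.mem_sup_right (S := (P : Subgroup G)) (Subgroup.mem_map_of_mem X.subtype h2))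
    simpa using h3
  obtain ⟨k, hk, hkD⟩ := exists_conj_into P.isPGroup' (hPX.trans hXK) hK hgD
    ((P.isPGroup'.to_le (wcl_le z _)).map _)
  refine ⟨K, hK, hPX.trans hXK, k, hk, mem_normalizer_wcl fun v hzv hv => ?_⟩
  have := hkD _ (Subgroup.mem_map_of_mem _ (mem_wcl hzv hv))
  convert this using 1
  simp only [MulEquiv.coe_toMonoidHom, MulAut.conj_apply]
  group

end Cfsg.Agent.H92.Pairs
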