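import Cfsg.Agent.H92.Pairs.Main
import Cfsg.Agent.H38.CyclicPairs.Reduce

/-!
# A group in which any two Sylow subgroups generate a `p`-solvable group is `p`-solvable
-/

set_option autoImplicit false
set_option linter.unusedSectionVars false

namespace Cfsg.Agent.H92.Pairs

universe u

variable {p : ℕ} [hp : Fact p.Prime]

theorem isPSolvable_of_equiv {A B : Type*} [Group A] [Group B] (e : A ≃* B)
    (h : Cfsg.IsPSolvable p A) : Cfsg.IsPSolvable p B :=
  H84.isPSolvable_of_surjective e.toMonoidHom e.surjective h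

/-- Subgroups inherit the hypothesis on pairs. -/
theorem pairs_subgroup {G : Type u} [Group G] [Finite G]
    (h : ∀ S T : Sylow p G, Cfsg.IsPSolvable p ↥((S : Subgroup G) ⊔ (T : Subgroup G)))
    (X : Subgroup G) (S T : Sylow p X) :
    Cfsg.IsPSolvable p ↥((S : Subgroup X) ⊔ (T : Subgroup X)) := by
  obtain ⟨S', hS⟩ := (S.isPGroup'.map X.subtype).exists_le_sylow
  obtain ⟨T', hT⟩ := (T.isPGroup'.map X.subtype).exists_le_sylow
  set U := ((S : Subgroup X) ⊔ (T : Subgroup X)).map X.subtype with hU
  have hle : U ≤ (S' : Subgroup G) ⊔ (T' : Subgroup G) := by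
    rw [hU, Subgroup.map_sup]
    exact sup_le_sup hS hT
  have h1 := H35.isPSolvable_subgroup (h S' T') (U.subgroupOf _)
  have h2 := isPSolvable_of_equiv (Subgroup.subgroupOfEquivOfLe hle) h1
  exact isPSolvable_of_equiv
    (((S : Subgroup X) ⊔ (T : Subgroup X)).equivMapOfInjective X.subtype X.subtype_injective).symm h2

theorem isPSolvable_of_pairs : ∀ (n : ℕ) (G : Type u) [Group G] [Finite G], Nat.card G = n →
    (∀ S T : Sylow p G, Cfsg.IsPSolvable p ↥((S : Subgroup G) ⊔ (T : Subgroup G))) →
    Cfsg.IsPSolvable p G := by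
  intro n
  induction n using Nat.strong_induction_on with
  | _ n ih =>
    intro G _ _ hG hpair
    have hprop : ∀ X : Subgroup G, X ≠ ⊤ → Cfsg.IsPSolvable p X := fun X hX =>
      ih (Nat.card X) (hG ▸ lt_of_le_of_ne (Subgroup.card_le_card_group X)
        fun e => hX (Subgroup.eq_top_of_card_eq X e)) X rfl (pairs_subgroup hpair X)
    by_cases hdvd : p ∣ Nat.card G
    swap
    · exact H38.CP.isPSolvable_of_card (Or.inr hdvd)
    haveI : Nontrivial G := Finite.one_lt_card_iff_nontrivial.1
      (lt_of_lt_of_le hp.out.one_lt (Nat.le_of_dvd Nat.card_pos hdvd))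
    by_cases hsimple : IsSimpleGroup G
    · haveI := hsimple
      obtain ⟨P⟩ : Nonempty (Sylow p G) := inferInstance
      rcases (inferInstance : (Subgroup.center G).Normal).eq_bot_or_eq_top with hc | hc
      · haveI : Nontrivial (P : Subgroup G) :=
          (Subgroup.nontrivial_iff_ne_bot _).2 (P.ne_bot_of_dvd_card hdvd)
        haveI := P.isPGroup'.center_nontrivial
        have hd : p ∣ Nat.card (Subgroup.center (P : Subgroup G)) := by
          obtain ⟨k, hk⟩ := IsPGroup.iff_card.1 (P.isPGroup'.to_subgroup (Subgroup.center _))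
          rcases Nat.eq_zero_or_pos k with rfl | hk0
          · have h1 : 1 < Nat.card (Subgroup.center (P : Subgroup G)) := Finite.one_lt_card
            rw [hk, pow_zero] at h1
            exact absurd h1 (lt_irrefl 1)
          · exact hk ▸ dvd_pow_self p hk0.ne'
        obtain ⟨⟨⟨z, hzP⟩, hzc⟩, hz⟩ := exists_prime_orderOf_dvd_card' p hd
        by_contra hns
        refine Conf.false (P := P) (z := z) ⟨hprop, fun S T e => hns ?_, hzP, fun x hx => ?_, ?_, hc⟩
        · exact isPSolvable_of_equiv ((MulEquiv.subgroupCongr e).trans Subgroup.topEquiv) (hpair S T)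
        · exact (congrArg Subtype.val (Subgroup.mem_center_iff.1 hzc ⟨x, hx⟩)).symm
        · rw [← Subgroup.orderOf_coe, ← Subgroup.orderOf_coe] at hz
          exact hz
      · haveI : (P : Subgroup G).Normal := ⟨fun x hx g => by
          have hxc : x ∈ Subgroup.center G := hc ▸ Subgroup.mem_top x
          rwa [Subgroup.mem_center_iff.1 hxc g, mul_inv_cancel_right]⟩
        rcases (inferInstance : (P : Subgroup G).Normal).eq_bot_or_eq_top with hb | ht
        · exact absurd hb (P.ne_bot_of_dvd_card hdvd)
        · obtain ⟨k, hk⟩ := IsPGroup.iff_card.1 P.2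
          exact H38.CP.isPSolvable_of_card (Or.inl ⟨k, by rw [← hk, ht, Subgroup.card_top]⟩)
    obtain ⟨L, hL, hLbot, hLtop⟩ : ∃ L : Subgroup G, L.Normal ∧ L ≠ ⊥ ∧ L ≠ ⊤ := by
      by_contra hcon
      push Not at hcon
      exact hsimple ⟨fun L hL => or_iff_not_imp_left.2 (hcon L hL)⟩
    obtain ⟨N, ⟨hN, hNbot, hNtop⟩, hmin⟩ := wellFounded_lt.has_min
      {N : Subgroup G | N.Normal ∧ N ≠ ⊥ ∧ N ≠ ⊤} ⟨L, hL, hLbot, hLtop⟩
    haveI := hN
    haveI : Nontrivial N := (Subgroup.nontrivial_iff_ne_bot N).2 hNbot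
    have key : ∀ Q : Subgroup N, Q.Characteristic → Q ≠ ⊥ → Q = ⊤ := by
      intro Q hQ hQb
      by_contra hQt
      haveI := hQ
      have hQN : Q.map N.subtype < N := lt_of_le_of_ne (Subgroup.map_subtype_le Q) fun e => hQt (by
        have := congrArg (Subgroup.comap N.subtype) e
        rwa [Subgroup.comap_map_eq_self_of_injective N.subtype_injective, ← Subgroup.subgroupOf,
          Subgroup.subgroupOf_self] at this)
      refine hmin _ ⟨inferInstance, fun e => hQb ?_, fun e => ?_⟩ hQN
      · exact (Subgroup.map_eq_bot_iff_of_injective _ N.subtype_injective).1 e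
      · rw [e] at hQN; exact not_top_lt hQN
    refine H38.CP.isPSolvable_extend N ?_ (ih (Nat.card (G ⧸ N)) ?_ (G ⧸ N) rfl ?_)
    · rcases H84.pCore_ne_bot_or_pPrimeCore_ne_bot (hprop N hNtop) with hh | hh
      · have := key _ (H19.pCore_characteristic p N) hh
        exact Or.inl (IsPGroup.iff_card.1 ((H19.pCore_isPGroup (G := N) p).of_equiv
          ((MulEquiv.subgroupCongr this).trans Subgroup.topEquiv)))
      · have := key _ (H19.pPrimeCore_characteristic p N) hh
        have hc := H19.pPrimeCore_coprime (G := N) p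
        rw [this, Subgroup.card_top] at hc
        exact Or.inr (hp.out.coprime_iff_not_dvd.1 hc.symm)
    · rw [← hG, Subgroup.card_eq_card_quotient_mul_card_subgroup N]
      exact lt_mul_of_one_lt_right Nat.card_pos Finite.one_lt_card
    · intro S T
      set f := QuotientGroup.mk' N
      obtain ⟨S', rfl⟩ := Sylow.mapSurjective_surjective (QuotientGroup.mk'_surjective N) p S
      obtain ⟨T', rfl⟩ := Sylow.mapSurjective_surjective (QuotientGroup.mk'_surjective N) p T
      set U := (S' : Subgroup G) ⊔ (T' : Subgroup G)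
      exact isPSolvable_of_equiv (MulEquiv.subgroupCongr (Subgroup.map_sup _ _ f))
        (H84.isPSolvable_of_surjective (f.subgroupMap U) (f.subgroupMap_surjective U) (hpair S' T'))

end Cfsg.Agent.H92.Pairs
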